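import Mathlib
import Cfsg.Agent.XM.BrChar
import Cfsg.Agent.Chev.ASChev
import Cfsg.Agent.Lang.Invol

/-!
# Brauer character values of the adjoint module of `E₈(3)`
-/

set_option autoImplicit false

namespace Cfsg.Agent.XM.E3

open Module Function Cfsg Cfsg.Lie Cfsg.Agent.Block Cfsg.Agent.Chev Cfsg.Agent.Chev.AS Cfsg.Agent.Lang

section Nat

variable (k : Type*) [Field k]

/-- The adjoint module. -/
noncomputable def adj : chevE8.group k →* End k (chevE8.Idx → k) :=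
  (Matrix.toLinAlgEquiv' (R := k)).toMonoidHom.comp ((Units.coeHom _).comp (chevE8.group k).subtype)

variable {k} [IsAlgClosed k] [CharP k 3] (ι : ZMod 3 →+* k)

omit [IsAlgClosed k] in
theorem coprime_three {q : ℕ} (h : (q : k) ≠ 0) : q.Coprime 3 :=
  ((Nat.Prime.coprime_iff_not_dvd Nat.prime_three).2 fun e => h ((CharP.cast_eq_zero_iff k 3 q).2 e)).symm

theorem sum_idx (g : List ℤ → ℕ) : ∑ a : chevE8.Idx, g (Sum.elim (fun _ => List.replicate alc8.l 0)
    (fun s : Rt chevE8 => (List.range alc8.l).map (chevE8.cartan · s)) a) = (alc8.W.map g).sum := by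
  rw [← wts8, ← sum_piece rootTableE8]
  refine (Fintype.sum_equiv (Equiv.subtypeUnivEquiv fun a => ?_) _ _ fun _ => rfl).symm
  have h0 : ∀ i, vecL lev8 i = 0 := fun i => by
    rw [vecL, show lev8 = List.replicate 8 0 from rfl, List.getD_eq_getElem?_getD,
      List.getElem?_replicate]
    split_ifs <;> rfl
  simp [fY, h0]

theorem isRep_adj : IsRep alc8 ((adj k).comp (fieldHom chevE8 ι)) := by
  have T := rootTableE8
  have hl : alc8.l = chevE8.rank := by decide +kernel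
  refine ⟨by simpa using sum_idx fun _ => 1, fun q _ ψ hψ g hg => ?_⟩
  obtain ⟨u, hu⟩ := exists_conj_mem_Hs_xC T 3 ι (coprime_three hψ.ne) hg
  obtain ⟨c, hc⟩ := exists_torY isSt_xC isR3_xC T hu
  change torC chevE8 T k c = _ at hc
  have h2 : c ^ q = 1 := torC_injective T (by simp) k (by
    rw [map_pow, hc, conj_pow, ← map_pow, hg]; simp)
  choose x hx using fun i => hψ.surj (c i) (by
    rw [← Units.val_pow_eq_pow_val, show c i ^ q = 1 from congrFun h2 i, Units.val_one])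
  let v : ℕ → ℤ := fun j => if h : j < chevE8.rank then (x ⟨j, h⟩).val else 0
  have hv : ∀ i : Fin chevE8.rank, (v i : ZMod q) = x i := fun i => by simp [v]
  refine ⟨v, ?_, fun h => ?_⟩
  · have h3 : adj k (torC chevE8 T k c) = Matrix.toLin' (Matrix.diagonal
        (Sum.elim (fun _ => (1 : k)) fun s : Rt chevE8 => (torChar chevE8 c s : k))) := by
      rw [← coe_diagHom, ← tor_apply, ← coe_torC T]; rfl
    rw [hist, ← sum_idx, ← prof_diagonal hψ, prof, prof, MonoidHom.comp_apply,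
      ← ed_conj (adj k) ψ u, ← hc, h3]
    congr! 6 with _ _ a
    rcases a with i | s
    · simp [dt_eq_sum, vecL]
    · simp only [Sum.elim_inr, dt_eq_sum, List.length_map, List.length_range, hl, Finset.sum_range,
        torChar]
      push_cast
      rw [psi_sum]
      refine Finset.prod_congr rfl fun i _ => ?_
      rw [hv, ← hx, ← AddChar.map_zsmul_eq_zpow, zsmul_eq_mul]
      simp [vecL]
  · have h4 : c = 1 := funext fun i => Units.ext (by
      rw [← hx, ← hv, (ZMod.intCast_zmod_eq_zero_iff_dvd _ _).2 (h i (i.2.trans_eq hl.symm))]; simp)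
    rw [h4, map_one, eq_comm, mul_inv_eq_one, mul_eq_left] at hc
    exact fieldHom_injective ι (hc.trans (map_one _).symm)

theorem exists_frob_conj {g : chevE8.group (ZMod 3)} {q : ℕ} (hq : q.Coprime 3) (hg : g ^ q = 1) :
    ∃ h, fieldHom chevE8 ι g * h = h * fieldHom chevE8 ι g ^ 3 := by
  have T := rootTableE8
  obtain ⟨u, c, w, h1, h2⟩ := exists_twisted_torus T 3 ι hq hg
  obtain ⟨n, -, hn⟩ := (isSt_xC (D := chevE8) (F := k)).exists_mem_Ns_acts T w
  have h3 := (conj_torY isSt_xC isR3_xC T hn c).trans h2.symm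
  change n * torC chevE8 T k c * n⁻¹ = _ at h3
  rw [ZMod.card, map_pow] at h3
  exact ⟨u * n⁻¹ * u⁻¹, by rw [h1, conj_pow, ← h3]; group⟩

end Nat

variable {k V : Type*} [Field k] [AddCommGroup V] [Module k V]

/-- A group acting like a subgroup of `E₈(3)` on the adjoint module. -/
structure Ad3 {Γ : Type*} [Group Γ] (ρ : Γ →* End k V) : Prop where
  rep : IsRep alc8 ρ
  frob : ∀ (q : ℕ) [NeZero q] (ψ : AddChar (ZMod q) k), Psi ψ → ∀ g, g ^ q = 1 →
    ∀ a, ed ψ (ρ g) (3 * a) = ed ψ (ρ g) a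

theorem ad3_adj [IsAlgClosed k] [CharP k 3] (ι : ZMod 3 →+* k) {Γ : Type*} [Group Γ]
    {j : Γ →* chevE8.group (ZMod 3)} (hj : Injective j) :
    Ad3 (((adj k).comp (fieldHom chevE8 ι)).comp j) := by
  refine ⟨(isRep_adj ι).comp hj, fun q _ ψ hψ g hg a => ?_⟩
  have hq := coprime_three hψ.ne
  obtain ⟨h, e⟩ := exists_frob_conj ι hq (g := j g) (by rw [← map_pow, hg, map_one])
  replace e := congrArg (adj k) e
  rw [map_mul, map_mul, map_pow] at e
  refine eq_of_le_comp (f := ed ψ (adj k (fieldHom chevE8 ι (j g)))) (T := fun x => 3 * x)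
    ((ZMod.unitOfCoprime 3 hq.symm).isUnit.mul_right_injective) (fun x => finrank_le_of_map
      (rep_injective (adj k) h) fun v hv => End.mem_eigenspace_iff.2 ?_) a
  rw [← End.mul_apply, e, End.mul_apply, pow_apply_of_eq (End.mem_eigenspace_iff.1 hv), map_smul,
    ← AddChar.map_nsmul_eq_pow, nsmul_eq_mul, Nat.cast_ofNat]

theorem digit_sum (n : ℕ) (f : ℕ → ℕ) (hf : ∀ i, f i < 256) {j : ℕ} (hj : j < n) :
    (∑ i ∈ Finset.range n, f i * 256 ^ i) / 256 ^ j % 256 = f j := by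
  induction n generalizing f j with
  | zero => omega
  | succ n ih =>
    have e : ∑ i ∈ Finset.range (n + 1), f i * 256 ^ i =
        f 0 + 256 * ∑ i ∈ Finset.range n, f (i + 1) * 256 ^ i := by
      rw [Finset.sum_range_succ', Finset.mul_sum, add_comm]
      simp [pow_succ', mul_left_comm]
    rw [e]
    cases j with
    | zero => have := hf 0; omega
    | succ j =>
      rw [pow_succ', ← Nat.div_div_eq_div_mul, Nat.add_mul_div_left _ _ (by norm_num),
        Nat.div_eq_of_lt (hf 0), zero_add]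
      exact ih _ (fun _ => hf _) (by omega)

/-- The test on the digits. -/
noncomputable def chk (n : ℕ) (P : (ℕ → ℕ) → Bool) : Bool :=
  enum alc8.m n (alc8.leaf n fun H => P fun a => H / 256 ^ a % 256)

theorem chk2 : chk 2 (fun d => d 0 == 136 || d 0 == 120) = true := by decide +kernel

/-- Traces of an element of order four and its square. -/
def L4 : List (ℤ × ℤ) := [(132, 24), (4, 24), (-4, 24), (28, 24), (0, -8), (8, -8), (64, -8)]

theorem chk4 : chk 4 (fun d => d 1 == d 3 && (d 1 == 0 ||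
    L4.elem ((d 0 : ℤ) - d 2, (d 0 : ℤ) + d 2 - 2 * d 1))) = true := by decide +kernel

/-- Traces of an element of order eight, its square and its fourth power. -/
def L8 : List (ℤ × ℤ × ℤ) := [(-6, 132, 24), (-4, 64, -8), (-2, 4, 24), (-2, 28, 24), (0, 0, -8),
  (0, 8, -8), (2, -4, 24), (2, 4, 24), (4, 0, -8), (6, 4, 24), (12, 64, -8), (14, 28, 24), (16, 0, -8),
  (26, 132, 24), (34, -4, 24), (44, 64, -8), (78, 28, 24)]

theorem chk8 : chk 8 (fun d => d 1 != d 3 || (d 1 == d 7 && d 3 == d 5 && d 2 == d 6 && (d 1 == 0 ||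
    L8.elem ((d 0 : ℤ) - d 4, (d 0 : ℤ) + d 4 - 2 * d 2, (d 0 : ℤ) + d 4 + 2 * d 2 - 4 * d 1)))) = true := by
  decide +kernel

theorem chk5 : chk 5 (fun d => d 1 != d 3 || d 0 == 68 || d 0 == 48 || d 0 == 52) = true := by decide +kernel

theorem chk11 : chk 11 (fun d => d 1 != d 3 || d 3 != d 9 || d 9 != d 5 || d 5 != d 4 || d 0 == 28) = true := by
  decide +kernel

variable {Γ : Type*} [Group Γ] [Finite Γ] {M : Ideal AlgInt} {W : Type*} [AddCommGroup W]
  [Module (resField M) W] [FiniteDimensional (resField M) W] {ρ : Γ →* End (resField M) W}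
  (hM : IsPModular 3 M) (h : Ad3 ρ)
include hM h

theorem Ad3.one : bc ρ 1 = 248 := by
  rw [bc_one ρ hM, h.rep.dim, show alc8.W.length = 248 by decide +kernel]; rfl

theorem Ad3.key {n : ℕ} [NeZero n] (hn : ¬ 3 ∣ n) {P : (ℕ → ℕ) → Bool} (hP : chk n P = true) {g : Γ}
    (hg : g ^ n = 1) (h1 : g ≠ 1) : ∃ (ζ : ℂ) (d : ℕ → ℕ), IsPrimitiveRoot ζ n ∧ P d = true ∧
      (∀ i < n, d (3 * i % n) = d i) ∧ (∀ m, bc ρ (g ^ m) = ∑ i ∈ Finset.range n, d i * ζ ^ (i * m)) ∧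
      ∑ i ∈ Finset.range n, d i = 248 ∧ d 0 = finrank (resField M) ((ρ g).eigenspace 1) := by
  obtain ⟨ζ, ψ, hζ, hψ, e⟩ := exists_bc_eq ρ hM hn
  have h2 : finrank (resField M) W = 248 := h.rep.dim.trans (by decide +kernel)
  have h3 : ∀ i < n, prof ψ (ρ g) / 256 ^ i % 256 = ed ψ (ρ g) i := fun i hi => by
    have := sum_zmod n fun i => ed ψ (ρ g) i * 256 ^ i
    simp only [ZMod.natCast_val, ZMod.cast_id', id_eq] at this
    rw [prof, this]
    exact digit_sum n (fun i => ed ψ (ρ g) i) (fun i => (Submodule.finrank_le _).trans_lt (by omega)) hi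
  have h4 : ∀ m, bc ρ (g ^ m) = ∑ i ∈ Finset.range n,
      (prof ψ (ρ g) / 256 ^ i % 256 : ℕ) * ζ ^ (i * m) := fun m => by
    rw [e g hg, ← sum_zmod]
    exact Finset.sum_congr rfl fun a _ => by rw [h3 _ a.val_lt]; simp
  refine ⟨ζ, _, hζ, h.rep.test ok8 hP hψ hg h1, fun i hi => ?_, h4, ?_, ?_⟩
  · rw [h3 _ hi, h3 _ (Nat.mod_lt _ (NeZero.pos n)), ← h.frob n ψ hψ g hg i]
    simp
  · have := h4 0
    rw [pow_zero, h.one hM] at this
    simp only [mul_zero, pow_zero, mul_one] at this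
    exact_mod_cast this.symm
  · rw [h3 0 (NeZero.pos n), ed, Nat.cast_zero, AddChar.map_zero_eq_one]

theorem Ad3.tr2 {g : Γ} (hg : g ^ 2 = 1) (h1 : g ≠ 1) : bc ρ g = 24 ∨ bc ρ g = -8 := by
  obtain ⟨ζ, d, hζ, k1, -, k2, k3, -⟩ := h.key hM (by norm_num) chk2 hg h1
  have := k2 1
  simp only [Finset.sum_range_succ, Finset.sum_range_zero, hζ.eq_neg_one_of_two_right] at this k3
  simp only [Bool.or_eq_true, beq_iff_eq] at k1
  rw [pow_one] at this
  rw [this]
  rcases k1 with e | e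
  · left; rw [e, show d 1 = 112 by omega]; norm_num
  · right; rw [e, show d 1 = 128 by omega]; norm_num

theorem Ad3.ne248 {g : Γ} (hg : g ^ 2 = 1) (h1 : g ≠ 1) : bc ρ g ≠ 248 := by
  rcases h.tr2 hM hg h1 with e | e <;> rw [e] <;> norm_num

theorem Ad3.tr4 {g : Γ} (hg : g ^ 4 = 1) (h1 : g ^ 2 ≠ 1) :
    ∃ t ∈ L4, bc ρ g = t.1 ∧ bc ρ (g ^ 2) = t.2 := by
  obtain ⟨ζ, d, hζ, k1, -, k2, k3, -⟩ := h.key hM (by norm_num) chk4 hg (by rintro rfl; simp at h1)
  have z : ζ ^ 2 = -1 := (hζ.pow (by norm_num) (show 4 = 2 * 2 from rfl)).eq_neg_one_of_two_right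
  have e1 := k2 1
  have e2 := k2 2
  simp only [Finset.sum_range_succ, Finset.sum_range_zero] at e1 e2 k3
  simp only [Bool.or_eq_true, Bool.and_eq_true, beq_iff_eq, List.elem_eq_mem, decide_eq_true_eq] at k1
  rw [← k1.1] at e1 e2 k3
  rw [pow_one] at e1
  have e3 : bc ρ (g ^ 2) = d 0 + d 2 - 2 * d 1 := by
    rw [e2]
    linear_combination (d 1 + d 2 * (ζ ^ 2 - 1) + d 1 * (ζ ^ 4 - ζ ^ 2 + 1)) * z
  refine ⟨_, k1.2.resolve_left fun e => h.ne248 hM (by rw [← pow_mul, hg]) h1 ?_, ?_, ?_⟩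
  · rw [e3, e, ← Nat.cast_add, show d 0 + d 2 = 248 by omega]; norm_num
  · rw [e1]; push_cast
    linear_combination (d 2 + d 1 * ζ) * z
  · rw [e3]; push_cast; rfl

theorem Ad3.tr8 {g : Γ} (hg : g ^ 8 = 1) (h1 : g ^ 4 ≠ 1) :
    ∃ t ∈ L8, bc ρ g = t.1 ∧ bc ρ (g ^ 2) = t.2.1 ∧ bc ρ (g ^ 4) = t.2.2 := by
  obtain ⟨ζ, d, hζ, k1, k0, k2, k3, -⟩ := h.key hM (by norm_num) chk8 hg (by rintro rfl; simp at h1)
  have z : ζ ^ 4 = -1 := (hζ.pow (by norm_num) (show 8 = 4 * 2 from rfl)).eq_neg_one_of_two_right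
  have e1 := k2 1
  have e2 := k2 2
  have e4 := k2 4
  have k4 : d 3 = d 1 := k0 1 (by norm_num)
  simp only [Finset.sum_range_succ, Finset.sum_range_zero] at e1 e2 e4 k3
  simp only [Bool.or_eq_true, Bool.and_eq_true, beq_iff_eq, List.elem_eq_mem, decide_eq_true_eq, k4,
    bne_self_eq_false, Bool.false_eq_true, false_or] at k1
  obtain ⟨⟨⟨k5, k6⟩, k7⟩, k8⟩ := k1
  rw [← k5, ← k6, ← k7, k4] at e1 e2 e4 k3
  rw [pow_one] at e1
  have e3 : bc ρ (g ^ 4) = d 0 + d 4 + 2 * d 2 - 4 * d 1 := by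
    simp only [e4, mul_comm _ 4, pow_mul, z]
    ring
  refine ⟨_, k8.resolve_left fun e => h.ne248 hM (by rw [← pow_mul, hg]) h1 ?_, ?_, ?_, ?_⟩
  · rw [e3, e, show (d 0 : ℂ) + d 4 + 2 * d 2 = (d 0 + d 4 + 2 * d 2 : ℕ) by push_cast; rfl,
      show d 0 + d 4 + 2 * d 2 = 248 by omega]
    norm_num
  · rw [e1]; push_cast
    linear_combination (d 4 + d 1 * ζ + d 2 * ζ ^ 2 + d 1 * ζ ^ 3) * z
  · rw [e2]; push_cast
    linear_combination (d 2 + d 4 * (ζ ^ 4 - 1) + d 2 * (ζ ^ 8 - ζ ^ 4 + 1) + d 1 * (ζ ^ 2 + ζ ^ 10)) * z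
  · rw [e3]; push_cast; rfl

theorem Ad3.tr5 {g : Γ} (hg : g ^ 5 = 1) (h1 : g ≠ 1) : ((bc ρ g = 23 ∨ bc ρ g = -2) ∨ bc ρ g = 3) ∧
    bc ρ (g ^ 2) = bc ρ g ∧ bc ρ (g ^ 3) = bc ρ g ∧ bc ρ (g ^ 4) = bc ρ g := by
  obtain ⟨ζ, d, hζ, k1, k0, k2, k3, -⟩ := h.key hM (by norm_num) chk5 hg h1
  have z := hζ.geom_sum_eq_zero (by norm_num)
  have z5 := hζ.pow_eq_one
  have k4 : d 3 = d 1 := k0 1 (by norm_num)
  have k5 : d 4 = d 3 := k0 3 (by norm_num)
  have k6 : d 2 = d 4 := k0 4 (by norm_num)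
  have e1 := k2 1
  have e2 := k2 2
  have e3 := k2 3
  have e4 := k2 4
  simp only [Finset.sum_range_succ, Finset.sum_range_zero, k6, k5, k4] at e1 e2 e3 e4 k3 z
  simp only [Bool.or_eq_true, beq_iff_eq, k4, bne_self_eq_false, Bool.false_eq_true, false_or] at k1
  rw [pow_one] at e1
  have e : bc ρ g = d 0 - d 1 := by rw [e1]; linear_combination d 1 * z
  refine ⟨?_, ?_, ?_, ?_⟩
  · rw [e]
    rcases k1 with (e | e) | e
    · left; left; rw [e, show d 1 = 45 by omega]; norm_num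
    · left; right; rw [e, show d 1 = 50 by omega]; norm_num
    · right; rw [e, show d 1 = 49 by omega]; norm_num
  · rw [e, e2]; linear_combination d 1 * z + d 1 * (ζ + ζ ^ 3) * z5
  · rw [e, e3]; linear_combination d 1 * z + d 1 * (ζ + ζ ^ 4 + ζ ^ 2 + ζ ^ 7) * z5
  · rw [e, e4]
    linear_combination d 1 * z + d 1 * (ζ ^ 3 + ζ ^ 2 + ζ ^ 7 + ζ + ζ ^ 6 + ζ ^ 11) * z5

theorem Ad3.fix11 {g : Γ} (hg : g ^ 11 = 1) (h1 : g ≠ 1) :
    finrank (resField M) ((ρ g).eigenspace 1) = 28 := by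
  obtain ⟨ζ, d, -, k1, k0, -, -, k2⟩ := h.key hM (by norm_num) chk11 hg h1
  have k4 : d 3 = d 1 := k0 1 (by norm_num)
  have k5 : d 9 = d 3 := k0 3 (by norm_num)
  have k6 : d 5 = d 9 := k0 9 (by norm_num)
  have k7 : d 4 = d 5 := k0 5 (by norm_num)
  simpa [k7, k6, k5, k4, k2] using k1

end Cfsg.Agent.XM.E3
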