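import Mathlib

/-!
# Highest weight vectors of simple modules for `SL₂(q)` in the defining characteristic
-/

set_option autoImplicit false

namespace Cfsg.Agent.XM

open Module Matrix Function
open scoped MatrixGroups

section Elts

variable {F : Type*} [Field F]

/-- Root elements. -/
def uu (t : F) : SL(2, F) := ⟨!![1, t; 0, 1], by simp [det_fin_two]⟩

/-- Diagonal elements. -/
def hh (a : Fˣ) : SL(2, F) := ⟨!![(a : F)⁻¹, 0; 0, a], by simp [det_fin_two]⟩

/-- The Weyl element. -/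
def ww : SL(2, F) := ⟨!![0, -1; 1, 0], by simp [det_fin_two]⟩

@[simp] theorem coe_uu (t : F) : (uu t : Matrix (Fin 2) (Fin 2) F) = !![1, t; 0, 1] := rfl

@[simp] theorem coe_hh (a : Fˣ) : (hh a : Matrix (Fin 2) (Fin 2) F) = !![(a : F)⁻¹, 0; 0, a] := rfl

@[simp] theorem coe_ww : ((ww : SL(2, F)) : Matrix (Fin 2) (Fin 2) F) = !![0, -1; 1, 0] := rfl

theorem uu_zero : uu (0 : F) = 1 := by
  ext i j; fin_cases i <;> fin_cases j <;> simp

theorem uu_add (t u : F) : uu (t + u) = uu t * uu u := by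
  ext i j; fin_cases i <;> fin_cases j <;> simp [add_comm]

theorem hh_one : hh (1 : Fˣ) = 1 := by
  ext i j; fin_cases i <;> fin_cases j <;> simp

theorem hh_mul (a b : Fˣ) : hh (a * b) = hh a * hh b := by
  ext i j; fin_cases i <;> fin_cases j <;> simp [mul_comm]

theorem hh_uu (a : Fˣ) (t : F) : hh a * uu t = uu (t / a ^ 2) * hh a := by
  ext i j; fin_cases i <;> fin_cases j <;> simp
  field_simp

theorem bruhat1 (x : SL(2, F)) (a : Fˣ) (h : x 1 0 = a) :
    x = uu (x 0 0 / a) * (hh a * (ww * uu (x 1 1 / a))) := by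
  have hd := x.det_coe
  rw [det_fin_two, h] at hd
  ext i j; fin_cases i <;> fin_cases j <;> simp [h]
  · field_simp
    linear_combination -hd
  · field_simp

theorem bruhat0 (x : SL(2, F)) (h : x 1 0 = 0) : ∃ (t : F) (a : Fˣ), x 1 1 = a ∧ x = uu t * hh a := by
  have hd := x.det_coe
  rw [det_fin_two, h, mul_zero, sub_zero] at hd
  have h1 : x 1 1 ≠ 0 := right_ne_zero_of_mul_eq_one hd
  refine ⟨x 0 1 / x 1 1, Units.mk0 _ h1, rfl, ?_⟩
  ext i j; fin_cases i <;> fin_cases j <;> simp [h, h1]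
  exact eq_inv_of_mul_eq_one_left hd

end Elts

variable {F k V : Type*} [Field F] [Fintype F] [Field k] [AddCommGroup V] [Module k V]
  (ι : F →+* k)
include ι

theorem exists_fixed [Nontrivial V] (A : F → End k V) (h0 : A 0 = 1)
    (hA : ∀ t u, A (t + u) = A t * A u) : ∃ v ≠ 0, ∀ t, A t v = v := by
  classical
  obtain ⟨p, hp⟩ := CharP.exists F
  have : Fact p.Prime := ⟨CharP.char_is_prime F p⟩
  have : CharP k p := (ι.charP_iff_charP p).1 hp
  have : CharP (End k V) p := charP_of_injective_algebraMap (algebraMap k _).injective p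
  have h1 : ∀ t (n : ℕ), A t ^ n = A (n * t) := fun t n => by
    induction n with
    | zero => simp [h0]
    | succ n ih => rw [pow_succ, ih, ← hA]; congr 1; push_cast; ring
  have h2 : ∀ t, (A t - 1) ^ p = 0 := fun t => by
    rw [sub_pow_char_of_commute _ (Commute.one_right _), h1, CharP.cast_eq_zero, zero_mul, h0]
    simp
  have h3 : ∀ t u, Commute (A t - 1) (A u - 1) := fun t u =>
    ((show Commute (A t) (A u) by rw [Commute, SemiconjBy, ← hA, ← hA, add_comm]).sub_right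
      (Commute.one_right _)).sub_left (Commute.one_left _)
  suffices ∀ s : Finset F, ∃ v ≠ 0, ∀ t ∈ s, (A t - 1) v = 0 by
    obtain ⟨v, h, h'⟩ := this Finset.univ
    exact ⟨v, h, fun t => sub_eq_zero.1 (h' t (Finset.mem_univ t))⟩
  intro s
  induction s using Finset.induction_on with
  | empty => simpa using exists_ne (0 : V)
  | insert t s _ ih =>
    obtain ⟨v, h4, h5⟩ := ih
    have h6 : ∃ n : ℕ, ((A t - 1) ^ n) v = 0 := ⟨p, by simp [h2]⟩
    obtain ⟨n, hn⟩ := Nat.exists_eq_succ_of_ne_zero (n := Nat.find h6) fun h => by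
      simpa [h, h4] using Nat.find_spec h6
    refine ⟨_, Nat.find_min h6 (m := n) (by omega), fun u hu => ?_⟩
    rcases Finset.mem_insert.1 hu with rfl | hu
    · rw [← End.mul_apply, ← pow_succ', ← Nat.succ_eq_add_one, ← hn, Nat.find_spec h6]
    · rw [← End.mul_apply, ((h3 u t).pow_right n).eq, End.mul_apply, h5 u hu, map_zero]

variable (ρ : SL(2, F) →* End k V)

theorem exists_functional [Nontrivial V] : ∃ r, 0 < r ∧ r < Fintype.card F ∧ ∃ φ : Dual k V, φ ≠ 0 ∧
    (∀ t s, φ (ρ (uu t) s) = φ s) ∧ ∀ a s, φ (ρ (hh a) s) = ι a ^ r * φ s := by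
  classical
  obtain ⟨φ, h1, h2⟩ := exists_fixed ι (V := Dual k V) (fun t => (ρ (uu t)).dualMap)
    (by ext; simp [uu_zero]) fun t u => by ext; simp [add_comm t, uu_add]
  let ψ : ℕ → Dual k V := fun r => ∑ a : Fˣ, (ι a)⁻¹ ^ r • φ ∘ₗ ρ (hh a)
  have hq := Fintype.one_lt_card (α := F)
  have h3 : ∑ r ∈ Finset.range (Fintype.card F - 1), ψ (r + 1) = -φ := by
    rw [Finset.sum_comm, Finset.sum_eq_single 1 (fun a _ ha => ?_) (by simp)]
    · have : ((Fintype.card F - 1 : ℕ) : k) = -1 := by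
        rw [Nat.cast_sub hq.le, ← map_natCast ι, FiniteField.cast_card_eq_zero]
        simp
      ext; simp [hh_one, this]
    · have h4 : (ι a)⁻¹ - 1 ≠ 0 := fun h => ha (Units.ext (ι.injective (by
        simpa [sub_eq_zero] using h)))
      have h5 := mul_geom_sum (ι a)⁻¹ (Fintype.card F - 1)
      rw [inv_pow, ← map_pow, FiniteField.pow_card_sub_one_eq_one _ a.ne_zero, map_one, inv_one,
        sub_self, mul_eq_zero, or_iff_right h4] at h5
      rw [← Finset.sum_smul]
      simp only [pow_succ, ← Finset.sum_mul, h5, zero_mul, zero_smul]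
  obtain ⟨r, hr, h4⟩ := Finset.exists_ne_zero_of_sum_ne_zero (h3 ▸ neg_ne_zero.2 h1)
  refine ⟨r + 1, r.succ_pos, by have := Finset.mem_range.1 hr; omega, _, h4, fun t s => ?_,
    fun b s => ?_⟩
  · simp only [ψ, LinearMap.sum_apply, LinearMap.smul_apply, LinearMap.comp_apply]
    refine Finset.sum_congr rfl fun a _ => ?_
    rw [← End.mul_apply, ← map_mul, hh_uu, map_mul, End.mul_apply]
    exact congrArg _ (LinearMap.congr_fun (h2 _) _)
  · simp only [ψ, LinearMap.sum_apply, LinearMap.smul_apply, LinearMap.comp_apply, Finset.mul_sum]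
    refine Fintype.sum_equiv (Equiv.mulRight b) _ _ fun a => ?_
    have : ι b ≠ 0 := (_root_.map_ne_zero ι).2 b.ne_zero
    rw [← End.mul_apply, ← map_mul, ← hh_mul]
    simp only [Equiv.coe_mulRight, Units.val_mul, map_mul, mul_inv, mul_pow, smul_eq_mul, inv_pow]
    field_simp

/-- A simple module embeds into the functions on the group, with a power of a coordinate in the
image. -/
theorem exists_hw [Nontrivial V]
    (hs : ∀ W : Submodule k V, (∀ g, W ≤ W.comap (ρ g)) → W = ⊥ ∨ W = ⊤) :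
    ∃ r < Fintype.card F, ∃ Φ : V →ₗ[k] (SL(2, F) → k), Injective Φ ∧
      (∀ g v x, Φ (ρ g v) x = Φ v (x * g)) ∧ ∃ s, ∀ x, Φ s x = ι (x 1 0) ^ r := by
  classical
  obtain ⟨r, h0, hr, φ, h1, h2, h3⟩ := exists_functional ι ρ
  let Φ : V →ₗ[k] (SL(2, F) → k) := LinearMap.pi fun x => φ ∘ₗ ρ x
  have hΦ : ∀ g v x, Φ (ρ g v) x = Φ v (x * g) := fun g v x => by simp [Φ]
  have hi : Injective Φ := by
    refine LinearMap.ker_eq_bot.1 ((hs Φ.ker fun g v hv => ?_).resolve_right fun h => h1 ?_)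
    · exact funext fun x => (hΦ g v x).trans (congrFun hv _)
    · ext v
      simpa [Φ] using congrFun (h.ge (Submodule.mem_top (x := v))) 1
  have k0 : ∀ s (x : SL(2, F)), x 1 0 = 0 → Φ s x = ι (x 1 1) ^ r * φ s := fun s x h => by
    obtain ⟨t, a, h4, h5⟩ := bruhat0 x h
    rw [h4, ← h3, ← h2 t, ← End.mul_apply, ← map_mul, ← h5]
    rfl
  have k1 : ∀ s, (∀ t, ρ (uu t) s = s) → ∀ x : SL(2, F), x 1 0 ≠ 0 →
      Φ s x = ι (x 1 0) ^ r * φ (ρ ww s) := fun s hs x h => by
    change φ (ρ x s) = _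
    nth_rewrite 1 [bruhat1 x (Units.mk0 _ h) rfl]
    simp only [map_mul, End.mul_apply, h2, h3, hs, Units.val_mk0]
  have k2 : ∀ s, (∀ t, ρ (uu t) s = s) → φ s = 0 → φ (ρ ww s) ≠ 0 →
      ∃ s, ∀ x, Φ s x = ι (x 1 0) ^ r := fun s hs h4 h5 => by
    refine ⟨(φ (ρ ww s))⁻¹ • s, fun x => ?_⟩
    rw [map_smul, Pi.smul_apply, smul_eq_mul]
    by_cases h : x 1 0 = 0
    · simp [k0 s x h, h, h4, h0.ne']
    · rw [k1 s hs x h]
      field_simp
  obtain ⟨s, h4, h5⟩ := exists_fixed ι (fun t => ρ (uu t)) (by simp [uu_zero]) (by simp [uu_add])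
  by_cases h6 : φ s = 0
  · refine ⟨r, hr, Φ, hi, hΦ, k2 s h5 h6 fun h7 => h4 (hi (funext fun x => ?_))⟩
    by_cases h : x 1 0 = 0
    · simp [k0 s x h, h6]
    · simp [k1 s h5 x h, h7]
  let s' := ∑ t, ρ (uu t) (ρ ww s)
  by_cases h7 : φ (ρ ww s') = 0
  swap
  · refine ⟨r, hr, Φ, hi, hΦ, k2 s' (fun u => ?_) ?_ h7⟩
    · rw [map_sum]
      exact Fintype.sum_equiv (Equiv.addLeft u) _ _ fun t => by simp [uu_add]
    · simp [s', h2, ← map_natCast ι]
  have h8 : φ (ρ ww s') = ι (-1) ^ r * φ s + (∑ a : Fˣ, ι a ^ r) * φ (ρ ww s) := by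
    have : ∀ t : F, φ (ρ ww (ρ (uu t) (ρ ww s))) = Φ s (ww * uu t * ww) := fun t => by simp [Φ]
    have e0 : ∀ t : F, (ww * uu t * ww : SL(2, F)) 1 0 = t := fun t => by simp
    have e1 : ∀ t : F, (ww * uu t * ww : SL(2, F)) 1 1 = -1 := fun t => by simp
    simp only [s', map_sum, this]
    rw [← Finset.add_sum_erase _ _ (Finset.mem_univ 0), k0 _ _ (e0 0), e1, Finset.sum_mul]
    congr 1
    refine (Finset.sum_bij (fun (a : Fˣ) _ => (a : F)) (by simp) (by simp [Units.ext_iff])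
      (fun t ht => ⟨Units.mk0 t (by simpa using ht), by simp⟩) fun a _ => ?_).symm
    rw [k1 s h5 _ (by rw [e0]; exact a.ne_zero), e0]
  let η : Fˣ →* k := (powMonoidHom r).comp ((ι : F →* k).comp (Units.coeHom F))
  have h9 : η = 1 := by
    by_contra h
    have : ∑ a : Fˣ, ι a ^ r = 0 := sum_hom_units_eq_zero η h
    rw [h7, this, zero_mul, add_zero, eq_comm, mul_eq_zero, or_iff_left h6] at h8
    simp at h8
  have h10 : ∀ t : F, t ≠ 0 → ι t ^ r = 1 := fun t ht => DFunLike.congr_fun h9 (Units.mk0 t ht)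
  have h11 : φ (ρ ww s) = φ s := by
    have hq := Fintype.one_lt_card (α := F)
    rw [h7, h10 _ (by simp), Finset.sum_congr rfl fun (a : Fˣ) _ => h10 a a.ne_zero] at h8
    simp only [Finset.sum_const, Finset.card_univ, Fintype.card_units, nsmul_eq_mul,
      Nat.cast_sub hq.le, ← map_natCast ι (Fintype.card F), FiniteField.cast_card_eq_zero] at h8
    simp only [map_zero, Nat.cast_one] at h8
    linear_combination h8
  refine ⟨0, Fintype.card_pos, Φ, hi, hΦ, (φ s)⁻¹ • s, fun x => ?_⟩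
  rw [map_smul, Pi.smul_apply, smul_eq_mul]
  by_cases h : x 1 0 = 0
  · obtain ⟨t, a, h12, -⟩ := bruhat0 x h
    simp [k0 s x h, h10 _ (h12 ▸ a.ne_zero), h6]
  · simp [k1 s h5 x h, h10 _ h, h11, h6]

end Cfsg.Agent.XM
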