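import Mathlib
import Cfsg.Agent.XM.E8Three
import Cfsg.Agent.XM.SL2Hw

/-!
# `L₂(41)` is not a subgroup of `E₈(3)`
-/

set_option autoImplicit false

namespace Cfsg.Agent.XM.E3

open Module Function Polynomial Cfsg Cfsg.Lie Cfsg.Agent.Chev Cfsg.Agent.Lang
open scoped MatrixGroups

theorem orderOf_twelve : orderOf (12 : ZMod 41) = 40 := (orderOf_eq_iff (by norm_num)).2 (by decide)

theorem aeval_ne_zero {N : ℕ} (hN : N ≠ 0) (n : ℕ) : ∀ χ : ℤ[X], χ.Monic → χ.natDegree = n → n < 16 →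
    (∀ z : ℂ, aeval z χ = 0 → z ^ N = 1) → aeval (12 : ZMod 41) χ ≠ 0 := by
  have : Fact (Nat.Prime 41) := ⟨by norm_num⟩
  induction n using Nat.strong_induction_on with
  | _ n ih =>
  intro χ h1 h2 h3 h4
  rcases n.eq_zero_or_pos with rfl | hn
  · rw [h1.natDegree_eq_zero.1 h2]; simp
  obtain ⟨z, hz⟩ := IsAlgClosed.exists_aeval_eq_zero ℂ χ (by
    rw [degree_eq_natDegree h1.ne_zero, h2]; exact_mod_cast hn.ne')
  have h5 := IsPrimitiveRoot.orderOf z
  have h6 : 0 < orderOf z := (isOfFinOrder_iff_pow_eq_one.2 ⟨N, hN.bot_lt, h4 z hz⟩).orderOf_pos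
  generalize orderOf z = d at h5 h6
  obtain ⟨χ', rfl⟩ : cyclotomic d ℤ ∣ χ := by
    rw [cyclotomic_eq_minpoly h5 h6]
    exact minpoly.isIntegrallyClosed_dvd (h5.isIntegral h6) hz
  have h7 := (cyclotomic.monic d ℤ).of_mul_monic_left h1
  rw [(cyclotomic.monic d ℤ).natDegree_mul h7, natDegree_cyclotomic] at h2
  have h8 := Nat.totient_pos.2 h6
  rw [map_mul]
  refine mul_ne_zero (fun h => ?_) (ih _ (by omega) χ' h7 rfl (by omega) fun z hz => h4 z (by
    rw [map_mul, hz, mul_zero]))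
  obtain ⟨g, hg⟩ := cyclotomic.dvd_X_pow_sub_one d ℤ
  have h9 := congrArg (aeval (12 : ZMod 41)) hg
  rw [map_mul, h, zero_mul, map_sub, map_pow, aeval_X, map_one, sub_eq_zero] at h9
  have h11 := Nat.le_of_dvd h8 (Nat.totient_dvd_of_dvd (orderOf_twelve ▸ orderOf_dvd_of_pow_eq_one h9))
  rw [show Nat.totient 40 = 16 by decide] at h11
  omega

section Weyl

variable {D : ChevalleyDatum} [Good D] (T : RootTable D)

theorem conj_pow_torC {k : Type*} [Field k] {n : D.group k} {w : T.W}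
    (hn : Acts (xC D k) T n w) (c : Fin D.rank → kˣ) (m : ℕ) :
    n ^ m * torC D T k c * (n ^ m)⁻¹ = torC D T k (pw c fun i j => (Matrix.of (wmat T w) ^ m :) i j) := by
  induction m with
  | zero =>
    rw [pow_zero, pow_zero, one_mul, inv_one, mul_one]
    exact congrArg _ (funext fun j => by simp [pw, Matrix.one_apply])
  | succ m ih =>
    rw [pow_succ' n, mul_inv_rev, mul_assoc n, mul_assoc n, ← mul_assoc _ _ n⁻¹, ih, ← mul_assoc]
    exact (conj_torY isSt_xC isR3_xC T hn _).trans (congrArg _ (pw_pw c _ _))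

theorem wmat_pow (hD : D ∈ [chevG2, chevF4, chevE8]) (w : T.W) :
    Matrix.of (wmat T w) ^ orderOf w = 1 := by
  obtain ⟨n, hN, hn⟩ := (isSt_xC (D := D) (F := ℚ)).exists_mem_Ns_acts T w
  have h1 := hn.pow (orderOf w)
  rw [pow_orderOf_eq_one] at h1
  obtain ⟨c, hc⟩ := exists_torY isSt_xC isR3_xC T
    ((isND_xC T).mem_Hs_of_acts_one isSt_xC (pow_mem hN _) h1)
  change torC D T ℚ c = _ at hc
  ext i j
  let a : ℚˣ := Units.mk0 2 two_ne_zero
  have h2 := conj_pow_torC T hn (Pi.mulSingle i a) (orderOf w)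
  rw [← hc, ← map_mul, mul_comm, map_mul, mul_inv_cancel_right, pw_mulSingle] at h2
  have h3 := congrArg Units.val (congrFun (torC_injective T hD ℚ h2) j)
  refine zpow_right_injective₀ (a := (2 : ℚ)) two_pos (by norm_num) ?_
  rw [Units.val_zpow_eq_zpow_val] at h3
  refine h3.symm.trans ?_
  rw [Matrix.one_apply, Pi.mulSingle_apply]
  by_cases h : i = j
  · simp [h, a]
  · simp [h, Ne.symm h]

theorem not_conj12 (hD : D ∈ [chevG2, chevF4, chevE8]) (h8 : D.rank < 16) {k : Type*} [Field k]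
    {c : Fin D.rank → kˣ} (hc : c ^ 41 = 1) (h1 : c ≠ 1) (w : T.W) : pw c (wmat T w) ≠ c ^ 12 := by
  intro h
  have : Fact (Nat.Prime 41) := ⟨by norm_num⟩
  obtain ⟨i₀, h2⟩ := Function.ne_iff.1 h1
  have h3 : IsPrimitiveRoot (c i₀) 41 := by
    simpa only [orderOf_eq_prime (congrFun hc i₀) h2] using IsPrimitiveRoot.orderOf (c i₀)
  choose v _ hv using fun i => h3.eq_pow_of_mem_rootsOfUnity (ξ := c i) (congrFun hc i)
  have hM := wmat_pow T hD w
  change pw c (fun i j => Matrix.of (wmat T w) i j) = _ at h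
  generalize Matrix.of (wmat T w) = M at h hM
  refine aeval_ne_zero (orderOf_pos w).ne' _ M.charpoly M.charpoly_monic rfl (by
    rwa [Matrix.charpoly_natDegree_eq_dim, Fintype.card_fin]) (fun z hz => ?_) ?_
  · have h4 : z ∈ spectrum ℂ (M.map (Int.castRingHom ℂ)) := by
      rw [Matrix.mem_spectrum_iff_isRoot_charpoly, Matrix.charpoly_map, IsRoot, eval_map]
      exact hz
    have h5 := spectrum.pow_mem_pow _ (orderOf w) h4
    have : Nonempty (Fin D.rank) := ⟨i₀⟩
    rwa [← RingHom.mapMatrix_apply, ← map_pow, hM, map_one, spectrum.one_eq] at h5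
  · rw [aeval_def, ← eval_map, ← Matrix.charpoly_map, Matrix.eval_charpoly,
      ← Matrix.exists_vecMul_eq_zero_iff]
    refine ⟨fun i => v i, fun e => h2 ?_, funext fun j => ?_⟩
    · rw [← hv i₀]
      exact (h3.pow_eq_one_iff_dvd _).2 ((ZMod.natCast_eq_zero_iff _ _).1 (congrFun e i₀))
    · have h4 : c i₀ ^ ((v j : ℤ) * 12 - ∑ i, v i * M i j) = 1 := by
        rw [zpow_sub, mul_inv_eq_one, zpow_sum_eq, zpow_mul, zpow_natCast, hv]
        simp only [zpow_mul, zpow_natCast, hv]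
        exact (congrFun h j).symm
      have h5 := (ZMod.intCast_zmod_eq_zero_iff_dvd _ 41).2 ((h3.zpow_eq_one_iff_dvd _).1 h4)
      simpa [Matrix.vecMul_sub, Matrix.vecMul, dotProduct, Matrix.diagonal_apply, mul_sub] using h5

end Weyl

theorem not_conj4 {t h : chevE8.group (ZMod 3)} (ht : t ^ 41 = 1) (h1 : t ≠ 1) :
    h * t * h⁻¹ ≠ t ^ 4 := by
  intro hh
  have T := rootTableE8
  let k := AlgebraicClosure (ZMod 3)
  let ι : ZMod 3 →+* k := algebraMap _ _
  obtain ⟨u, hu⟩ := exists_conj_mem_Hs_xC T 3 ι (by norm_num) ht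
  obtain ⟨c, hc⟩ := exists_torY isSt_xC isR3_xC T hu
  change torC chevE8 T k c = _ at hc
  obtain ⟨f, hf⟩ := exists_frob_conj ι (by norm_num) ht
  replace hh := congrArg (fieldHom chevE8 ι) hh
  rw [map_mul, map_mul, map_inv, map_pow] at hh
  have h2 : u * (f⁻¹ * fieldHom chevE8 ι h) * u⁻¹ * torC chevE8 T k c *
      (u * (f⁻¹ * fieldHom chevE8 ι h) * u⁻¹)⁻¹ = torC chevE8 T k (c ^ 12) := by
    rw [map_pow, hc, conj_pow, show 12 = 3 * 4 from rfl, pow_mul, ← inv_mul_cancel_left f (_ ^ 3), ← hf,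
      ← mul_assoc f⁻¹, show ∀ x, (f⁻¹ * x * f) ^ 4 = f⁻¹ * x ^ 4 * f from fun x => by
        simpa using conj_pow (a := f⁻¹) (b := x) (i := 4), ← hh]
    group
  obtain ⟨n, hN, h4⟩ := exists_Ns_conj (isND_xC T) isSt_xC Gs_xC (S := {torC chevE8 T k c})
    (g := u * (f⁻¹ * fieldHom chevE8 ι h) * u⁻¹) (by rintro _ rfl; exact torY_mem_Hs _ _ T c)
    (by rintro _ rfl; rw [h2]; exact torY_mem_Hs _ _ T _)
  obtain ⟨w, hw⟩ := isSt_xC.exists_acts T hN
  refine not_conj12 T (by simp) (by decide) (c := c) (torC_injective T (by simp) k (by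
    rw [map_pow, hc, conj_pow, ← map_pow, ht]; simp)) ?_ w
    (torC_injective T (by simp) k ((conj_torY _ _ T hw c).symm.trans ((h4 _ rfl).trans h2)))
  rintro rfl
  rw [map_one, eq_comm, mul_inv_eq_one, mul_eq_left] at hc
  exact h1 (fieldHom_injective ι (hc.trans (map_one _).symm))

theorem uu_pow {F : Type*} [Field F] (t : F) (n : ℕ) : uu t ^ n = uu (n * t) := by
  induction n with
  | zero => simp [uu_zero]
  | succ n ih => rw [pow_succ, ih, ← uu_add]; congr 1; push_cast; ring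

theorem uu_not_mem_center {F : Type*} [Field F] {t : F} (ht : t ≠ 0) :
    uu t ∉ Subgroup.center SL(2, F) := fun h => by
  have := congrArg (fun x : SL(2, F) => x 0 0) (Subgroup.mem_center_iff.1 h ww)
  simp [ht.symm] at this

theorem no_L41 {F : Type*} [Field F] [Fintype F] (h41 : Fintype.card F = 41)
    (j : Matrix.ProjectiveSpecialLinearGroup (Fin 2) F →* chevE8.group (ZMod 3)) : ¬ Injective j := by
  intro hj
  have h0 : ((41 : ℕ) : F) = 0 := h41 ▸ FiniteField.cast_card_eq_zero F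
  have h2 : (2 : F) ≠ 0 := fun h => one_ne_zero (α := F) (by
    push_cast at h0; linear_combination h0 - 20 * h)
  let π := j.comp (QuotientGroup.mk' (Subgroup.center SL(2, F)))
  refine not_conj4 (t := π (uu 1)) (h := π (hh (Units.mk0 2 h2)⁻¹)) ?_ (fun h => ?_) ?_
  · rw [← map_pow, uu_pow, h0, zero_mul, uu_zero, map_one]
  · exact uu_not_mem_center one_ne_zero ((QuotientGroup.eq_one_iff _).1 (hj (h.trans (map_one j).symm)))
  · rw [← map_mul, hh_uu, map_mul, mul_inv_cancel_right, ← map_pow, uu_pow]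
    congr 2
    simp; norm_num

end Cfsg.Agent.XM.E3
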