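import Mathlib
import Cfsg.Agent.XM.E8L41
import Cfsg.Agent.KSG.SL2Deg
import Cfsg.Agent.Block.ModExists

/-!
# `L₂(32)` is not a subgroup of `E₈(3)`
-/

set_option autoImplicit false

namespace Cfsg.Agent.XM.E3

open Module Function Cfsg Cfsg.Agent.Block Cfsg.Agent.KSG.GL2 Cfsg.Agent.KSG.M2 MonoidAlgebra
open scoped MatrixGroups

theorem cl_pow {G : Type*} [Group G] {y : G} {n : ℕ} (hy : y ^ n = 1) :
    Cl ((Finset.range n).val.map (y ^ ·)) := by
  intro g hg
  obtain ⟨m, -, rfl⟩ := Multiset.mem_map.1 hg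
  clear hg
  induction m with
  | zero => simp
  | succ m ih =>
    have h : ((Finset.range n).val.map (y ^ ·)).map (y * ·) = (Finset.range n).val.map (y ^ ·) := by
      have h1 : (Multiset.range (n + 1)).map (y ^ ·) = 1 ::ₘ (Multiset.range n).map (y ^ ·) := by
        rw [Multiset.range_succ, Multiset.map_cons, hy]
      rw [← Multiset.cons_inj_right 1, Finset.range_val, ← h1]
      simp [Multiset.range, List.range_succ_eq_map, pow_succ', Function.comp_def]
    conv_rhs => rw [← h, ← ih]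
    simp only [Multiset.map_map, Function.comp_def, pow_succ', mul_assoc]

variable {F : Type*} [Field F]

theorem eq_top_of_uu (K : Subgroup SL(2, F)) [hK : K.Normal] (h : ∀ t, uu t ∈ K) : K = ⊤ := by
  have h1 : ∀ x : SL(2, F), x 1 0 ≠ 0 → x ∈ K := fun x hx => by
    rw [bruhat1 x (Units.mk0 _ hx) rfl, ← mul_assoc (hh _), show hh (Units.mk0 _ hx) * ww =
      uu (-(x 1 0)⁻¹) * (ww * uu (-x 1 0) * ww⁻¹) * uu (-(x 1 0)⁻¹) by
        ext i j
        fin_cases i <;> fin_cases j <;> simp [Matrix.adjugate_fin_two, hx]]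
    exact mul_mem (h _) (mul_mem (mul_mem (mul_mem (h _) (hK.conj_mem _ (h _) _)) (h _)) (h _))
  refine eq_top_iff.2 fun x _ => (em (x 1 0 = 0)).elim (fun hx => ?_) (h1 x)
  obtain ⟨t, a, -, rfl⟩ := bruhat0 x hx
  refine (K.mul_mem_cancel_right (h1 ww (by simp))).1 (h1 _ ?_)
  simp

variable [Fintype F]

theorem cl_uu : Cl (Finset.univ.val.map (uu (F := F))) := by
  intro g hg
  obtain ⟨t, -, rfl⟩ := Multiset.mem_map.1 hg
  conv_rhs => rw [← Multiset.map_univ_val_equiv (Equiv.addLeft t)]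
  simp only [Multiset.map_map, Function.comp_def, Equiv.coe_addLeft, uu_add]

theorem sum_uu (h2 : ringChar F = 2) {θ : SL(2, F) → ℂ} (hθ : IsClassFunction _ θ) :
    ((Finset.univ.val.map uu).map θ).sum = θ 1 + (Fintype.card F - 1) * θ (uu 1) := by
  classical
  rw [Multiset.map_map, ← Finset.sum_eq_multiset_sum, ← Finset.add_sum_erase _ _ (Finset.mem_univ 0),
    Finset.sum_congr rfl (g := fun _ => θ (uu 1)) fun t ht => ?_]
  · simp [uu_zero, Nat.cast_sub Fintype.card_pos]
  · obtain ⟨s, rfl⟩ := FiniteField.isSquare_of_char_two h2 t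
    have h0 : s ≠ 0 := fun h => by simp [h] at ht
    rw [← hθ (uu 1) (hh (Units.mk0 s h0)⁻¹), hh_uu, mul_inv_cancel_right]
    simp [sq]

omit [Fintype F] in
theorem eq_one_of_isScal (h2 : ringChar F = 2) {g : SL(2, F)} (h : IsScal (g : Matrix _ _ F)) : g = 1 := by
  have : CharP F 2 := ringChar.of_eq h2
  have h1 := g.det_coe
  rw [Matrix.det_fin_two, h.1, ← h.2.2, zero_mul, sub_zero, mul_self_eq_one_iff, CharTwo.neg_eq,
    or_self] at h1
  ext i j
  fin_cases i <;> fin_cases j <;> simp [h.1, h.2.1, ← h.2.2, h1]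

theorem vals32 [DecidableEq F] (h32 : Fintype.card F = 32) (h2 : ringChar F = 2) {g1 : SL(2, F)}
    [Fact (NoEig (g1 : Matrix _ _ F))] {y : TorS g1} (hy : orderOf y = 11) {χ : SL(2, F) → ℂ}
    (hχ : IsIrrCharacter _ χ) : ∃ d c : ℕ, χ 1 = d ∧
      ∑ j ∈ Finset.range 11, χ (y ^ j) = 11 * c ∧ c ≤ 3 ∧ d ≤ 31 + c := by
  have : CharP F 2 := ringChar.of_eq h2
  have h1 : ∀ j ∈ Finset.range 10, ¬ IsScal (((y ^ (j + 1) :) : SL(2, F)) : Matrix _ _ F) := fun j hj h =>
    pow_ne_one_of_lt_orderOf (by omega) (by rw [hy]; exact Nat.succ_lt_succ (Finset.mem_range.1 hj))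
      (Subtype.ext (eq_one_of_isScal h2 h))
  rw [Finset.sum_range_succ', pow_zero]
  rcases irrS_cases_deg g1 hχ with ⟨rfl, -⟩ | ⟨rfl, e⟩ | ⟨⟨α, -, rfl⟩, e⟩ | ⟨⟨η, -, rfl⟩, e⟩ |
    ⟨⟨α, -, a, b, -⟩, -⟩ | ⟨⟨η, -, a, b, -⟩, -⟩
  · exact ⟨1, 1, by simp, by norm_num, by omega, by omega⟩
  · refine ⟨32, 2, by simp [e, h32], ?_, by omega, by omega⟩
    rw [e, h32, Finset.sum_congr rfl (g := fun _ => -1) fun j hj => by
      exact ((vals_stw _ 1).ell (torIncl g1 (y ^ (j + 1))) (h1 j hj)).trans (by rw [detT_torIncl]; simp)]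
    norm_num
  · refine ⟨33, 3, by rw [e, h32]; norm_num, ?_, by omega, by omega⟩
    rw [e, h32, Finset.sum_congr rfl (g := fun _ => 0) fun j hj => by
      rw [psS_eq]
      exact (vals_ps _ α 1).ell (torIncl g1 (y ^ (j + 1))) (h1 j hj)]
    norm_num
  · have h3 : (η y : ℂ) ^ 11 = 1 := by
      rw [← Units.val_pow_eq_pow_val, ← map_pow, ← hy, pow_orderOf_eq_one, map_one, Units.val_one]
    rw [e, h32, Finset.sum_congr rfl (g := fun j => -((η y : ℂ) ^ (j + 1) + (η y : ℂ)⁻¹ ^ (j + 1)))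
      fun j hj => by exact (cusp_extT_tor η (h1 j hj)).trans (by simp)]
    generalize (η y : ℂ) = z at h3
    by_cases h4 : z = 1
    · exact ⟨31, 1, by norm_num, by rw [h4]; norm_num, by omega, by omega⟩
    · refine ⟨31, 3, by norm_num, ?_, by omega, by omega⟩
      have h5 : ∀ w : ℂ, w ≠ 1 → w ^ 11 = 1 → ∑ j ∈ Finset.range 10, w ^ (j + 1) = -1 := fun w a b => by
        have := geom_sum_eq a 11
        rw [b, Finset.sum_range_succ', sub_self, zero_div] at this
        linear_combination this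
      rw [Finset.sum_neg_distrib, Finset.sum_add_distrib, h5 z h4 h3, h5 z⁻¹ (by simpa) (by simp [h3])]
      norm_num
  · exact (two_ne_zero_of_mulChar a b CharTwo.two_eq_zero).elim
  · exact (two_ne_zero_of_torS a b CharTwo.two_eq_zero).elim

section Ibr

variable {G : Type*} [Group G] [Finite G] {M : Ideal AlgInt} {p : ℕ} (hM : IsPModular p M)
include hM

theorem sum_class {θ : G → ℂ} (hθ : IsClassFunction G θ) {s : Multiset G} (h : Cl s) (hs : ¬ p ∣ s.card) :
    (s.map θ).sum = s.card * ∑ i : IBr M G, (brAlg i (redAlg M (avg s))).rank * ev θ (pimIdem i) := by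
  have h0 : s.card ≠ 0 := fun e => hs (e ▸ dvd_zero p)
  rw [← ev_idem_eq_sum hθ (avg_mem hM hs) (h.idem h0), ev_avg,
    mul_inv_cancel_left₀ (Nat.cast_ne_zero.2 h0)]

theorem sum_brauer (i : IBr M G) {s : Multiset G} (h : Cl s) (hs : ¬ p ∣ s.card) :
    (s.map (brauer i)).sum = s.card * (brAlg i (redAlg M (avg s))).rank := by
  classical
  simp [sum_class hM (isClassFunction_brauer i) h hs, ev_brauer_pimIdem hM]

theorem rank_avg_iff (i : IBr M G) {s : Multiset G} (h : Cl s) (hs : ¬ p ∣ s.card) :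
    (brAlg i (redAlg M (avg s))).rank = brDeg i ↔ ∀ g ∈ s, brAlg i (single g 1) = 1 := by
  have h0 : s.card ≠ 0 := fun e => hs (e ▸ dvd_zero p)
  refine ⟨fun e g hg => ?_, fun e => ?_⟩
  · have h1 : IsUnit (brAlg i (redAlg M (avg s))) := by
      rw [← Matrix.mulVec_surjective_iff_isUnit, ← Matrix.coe_mulVecLin, ← LinearMap.range_eq_top]
      exact Submodule.eq_top_of_finrank_eq (by simpa [Matrix.rank] using e)
    refine h1.mul_right_cancel ?_
    rw [← redAlg_single_one, ← map_mul, ← redAlg_mul (single_one_mem_intAlg g) (avg_mem hM hs),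
      h.single_mul hg, one_mul]
  · rw [redAlg_avg hM hs, map_smul, map_multiset_sum, Multiset.map_map,
      Multiset.map_congr rfl (g := fun _ => 1) fun g hg => by exact e g hg]
    simp [← Nat.cast_smul_eq_nsmul (resField M), smul_smul, cast_ne_zero hM hs]

end Ibr

theorem not_ad3_SL2 (h32 : Fintype.card F = 32) {M : Ideal AlgInt} (hM : IsPModular 3 M) {V : Type*}
    [AddCommGroup V] [Module (resField M) V] [FiniteDimensional (resField M) V]
    (ρ : SL(2, F) →* End (resField M) V) : ¬ Ad3 ρ := by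
  classical
  intro h
  have h2 : ringChar F = 2 := FiniteField.even_card_iff_char_two.2 (by rw [h32])
  have : CharP F 2 := ringChar.of_eq h2
  obtain ⟨g1, _⟩ := exists_fact_noEigS (F := F)
  obtain ⟨y, hy⟩ := exists_prime_orderOf_dvd_card' (G := TorS g1) 11 (hp := ⟨by norm_num⟩) (by
    rw [card_torS, Nat.card_eq_fintype_card, h32]; norm_num)
  have y1 : (y : SL(2, F)) ^ 11 = 1 := by rw [← hy, ← Subgroup.coe_pow, pow_orderOf_eq_one]; rfl
  have u1 : uu (1 : F) ^ 2 = 1 := by rw [uu_pow, CharP.cast_eq_zero, zero_mul, uu_zero]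
  have cY := cl_pow y1
  have cU := cl_uu (F := F)
  have nY : ¬ 3 ∣ ((Finset.range 11).val.map ((y : SL(2, F)) ^ ·)).card := by simp
  have nU : ¬ 3 ∣ (Finset.univ.val.map (uu (F := F))).card := by simp [h32]
  have key : ∀ i : IBr M SL(2, F), ∀ a c, a = (brAlg i (redAlg M (avg (Finset.univ.val.map uu)))).rank →
      c = (brAlg i (redAlg M (avg ((Finset.range 11).val.map ((y : SL(2, F)) ^ ·))))).rank →
      a ≤ c ∧ 31 * c ≤ 3 * brDeg i + 93 * a := by
    intro i a c ha hc
    have k1 := sum_brauer hM i cU nU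
    have k2 := sum_brauer hM i (cl_pow u1) (by simp)
    rw [sum_uu h2 (isClassFunction_brauer i), ← ha, brauer_one] at k1
    generalize (brAlg i _).rank = r at k2
    have k3 : 32 * a + 30 * brDeg i = 62 * r := by
      simp [h32, Finset.range_add_one, brauer_one] at k1 k2
      exact_mod_cast (show (32 * a + 30 * brDeg i : ℂ) = 62 * r by linear_combination 31 * k2 - k1)
    obtain ⟨χ, k4⟩ := exists_dec_ne_zero i
    obtain ⟨d, c', k5, k6, k7, k8⟩ := vals32 h32 h2 hy χ.2
    have k9 := sum_class hM (Char.Cfsg.IsIrrCharacter.isClassFunction χ.2) cY nY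
    rw [Multiset.map_map, ← Finset.sum_eq_multiset_sum] at k9
    simp only [← cast_dec_irr] at k9
    have k10 : c' = ∑ i : IBr M SL(2, F), (brAlg i (redAlg M (avg ((Finset.range 11).val.map
        ((y : SL(2, F)) ^ ·))))).rank * dec (χ : _ → ℂ) i := by
      rw [Multiset.card_map, Finset.card_val, Finset.card_range] at k9
      exact_mod_cast mul_left_cancel₀ (by norm_num : (11 : ℂ) ≠ 0) (k6.symm.trans k9)
    have k11 : d = ∑ i : IBr M SL(2, F), brDeg i * dec (χ : _ → ℂ) i := by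
      have := irr_eq_sum_dec hM χ (g := 1) (by simp)
      simp only [brauer_one, k5, mul_comm (dec _ _ : ℂ)] at this
      exact_mod_cast this
    have k12 : ∀ e, ∀ i : IBr M SL(2, F), (brAlg i e).rank ≤ brDeg i := fun e i => Matrix.rank_le_width _
    rw [← Finset.add_sum_erase _ _ (Finset.mem_univ i), ← hc] at k10
    rw [← Finset.add_sum_erase _ _ (Finset.mem_univ i)] at k11
    have k13 := Finset.sum_le_sum (s := Finset.univ.erase i) fun i _ => Nat.mul_le_mul_right
      (dec (χ : _ → ℂ) i) (k12 (redAlg M (avg ((Finset.range 11).val.map ((y : SL(2, F)) ^ ·)))) i)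
    have k14 : a ≤ brDeg i := ha ▸ k12 _ i
    have k15 : c ≤ brDeg i := hc ▸ k12 _ i
    have k16 : a = brDeg i → c = brDeg i := fun e => hc.trans ((rank_avg_iff hM i cY nY).2 fun g _ =>
      (eq_top_of_uu (MonoidHom.ker ((brAlg i).toMonoidHom.comp (of _ _))) fun t =>
        (rank_avg_iff hM i cU nU).1 (ha ▸ e) _ (Multiset.mem_map_of_mem _ (Finset.mem_univ t))).ge
        (Subgroup.mem_top g))
    have k17 := brDeg_ne_zero i
    obtain ⟨m, k18⟩ := Nat.exists_eq_add_of_le k15
    have k19 := Nat.le_mul_of_pos_right c k4.bot_lt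
    have k20 := Nat.le_mul_of_pos_right m k4.bot_lt
    have k21 := congrArg (· * dec (χ : _ → ℂ) i) k18
    simp only [add_mul] at k21
    omega
  have k1 := rk_eq_sum ρ (avg_mem hM nY) (cY.idem (by simp))
  have k2 := rk_eq_sum ρ (avg_mem hM nU) (cU.idem (by simp))
  have k3 : 248 = ∑ i : IBr M SL(2, F), brDeg i * rk ρ (pimIdem i) := by
    have := h.one hM
    simp only [bc, Finset.sum_apply, Pi.smul_apply, brauer_one, smul_eq_mul, mul_comm (rk _ _ : ℂ)] at this
    exact_mod_cast this.symm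
  have k4 := Finset.sum_le_sum (s := Finset.univ) fun i _ =>
    Nat.mul_le_mul_right (rk ρ (pimIdem i)) (key i _ _ rfl rfl).1
  have k5 := Finset.sum_le_sum (s := Finset.univ) fun i _ =>
    Nat.mul_le_mul_right (rk ρ (pimIdem i)) (key i _ _ rfl rfl).2
  simp only [add_mul, mul_assoc, Finset.sum_add_distrib, ← Finset.mul_sum] at k5
  rw [← k1, ← k2] at k4 k5
  have k6 := sum_bc ρ hM cU nU
  rw [← rk_avg ρ hM nU, sum_uu h2 (bc_conj ρ), h.one hM] at k6
  have k7 := range_eig (x := ρ y) (z := (1 : resField M)) (by rw [← map_pow, y1, map_one]) (one_pow 11)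
    (cast_ne_zero hM (by norm_num))
  simp only [inv_one, one_pow, one_smul, ← map_pow] at k7
  rw [rk_avg ρ hM nY, Multiset.map_map, ← Finset.sum_eq_multiset_sum, Function.comp_def, k7,
    h.fix11 hM y1 fun e => by simp [show y = 1 from Subtype.ext e] at hy] at k4 k5
  generalize rk ρ (avg _) = a at k4 k5 k6
  simp only [Multiset.card_map, Finset.card_val, Finset.card_univ, h32] at k6
  rcases h.tr2 hM u1 (fun e => uu_not_mem_center one_ne_zero (e ▸ one_mem _)) with e | e <;> rw [e] at k6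
  · obtain rfl : a = 31 := by exact_mod_cast (show (a : ℂ) = 31 by push_cast at k6; linear_combination -k6 / 32)
    omega
  · obtain rfl : a = 0 := by exact_mod_cast (show (a : ℂ) = 0 by push_cast at k6; linear_combination -k6 / 32)
    omega

theorem exists_ad3 {Γ : Type*} [Group Γ] {j : Γ →* Lie.chevE8.group (ZMod 3)} (hj : Injective j) :
    ∃ (M : Ideal AlgInt) (_ : IsPModular 3 M) (ρ : Γ →* End (resField M) (Lie.chevE8.Idx → resField M)),
      Ad3 ρ := by
  obtain ⟨M, hM⟩ := exists_isPModular Nat.prime_three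
  have := charP_resField hM
  exact ⟨M, hM, _, ad3_adj (ZMod.castHom dvd_rfl (resField M)) hj⟩

theorem no_L32 (h32 : Fintype.card F = 32)
    (j : Matrix.ProjectiveSpecialLinearGroup (Fin 2) F →* Lie.chevE8.group (ZMod 3)) : ¬ Injective j := by
  intro hj
  have : CharP F 2 := ringChar.of_eq (FiniteField.even_card_iff_char_two.2 (by rw [h32]))
  obtain ⟨M, hM, ρ, h⟩ := exists_ad3 (j := j.comp (QuotientGroup.mk' (Subgroup.center SL(2, F))))
    (hj.comp (by
      rw [← MonoidHom.ker_eq_bot_iff, QuotientGroup.ker_mk', eq_bot_iff]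
      intro g hg
      rcases SL_mem_center_iff'.1 hg with rfl | rfl
      · rfl
      · ext i j; simp [CharTwo.neg_eq]))
  exact not_ad3_SL2 h32 hM ρ h

end Cfsg.Agent.XM.E3
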