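import Mathlib
import Cfsg.Agent.XM.BrChar
import Cfsg.Agent.Comp.MatBig

/-!
# Certificates for small subgroups of a group whose elements are coded by numbers
-/

set_option autoImplicit false

namespace Cfsg.Agent.XM.E3

open Module Function Cfsg Cfsg.Agent.Block Cfsg.Agent.Comp.BN

/-- Evaluate the members of a list. -/
noncomputable def frcL {α : Type} (l : List ℕ) : (List ℕ → α) → α :=
  List.rec (motive := fun _ => (List ℕ → α) → α) (fun k => k [])
    (fun a _ ih k => frc a fun x => ih fun l => k (x :: l)) l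

theorem frcL_eq {α : Type} (l : List ℕ) (k : List ℕ → α) : frcL l k = k l := by
  induction l generalizing k with
  | nil => rfl
  | cons a l ih =>
    have e : frcL (a :: l) k = frc a fun x => frcL l fun l => k (x :: l) := rfl
    rw [e, frc_eq, ih]

/-- Multiplicity. -/
noncomputable def cnt (a : ℕ) (l : List ℕ) : ℕ :=
  List.rec 0 (fun b _ ih => bif' (Nat.beq b a) (Nat.succ ih) ih) l

theorem cnt_eq (a : ℕ) (l : List ℕ) : cnt a l = l.count a := by
  induction l with
  | nil => rfl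
  | cons b l ih =>
    rw [show cnt a (b :: l) = bif' (Nat.beq b a) (Nat.succ (cnt a l)) (cnt a l) from rfl, ih, bif'_eq,
      List.count_cons]
    simp only [Nat.beq_eq, beq_iff_eq]
    split_ifs <;> rfl

/-- Remove repetitions. -/
noncomputable def ded (l : List ℕ) : List ℕ → List ℕ :=
  List.rec (fun m => m) (fun a _ ih m => bif' (Nat.beq (cnt a m) 0) (ih (a :: m)) (ih m)) l

theorem mem_ded {a : ℕ} {l m : List ℕ} (h : a ∈ l ∨ a ∈ m) : a ∈ ded l m := by
  induction l generalizing m with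
  | nil => simpa [ded] using h
  | cons b l ih =>
    rw [show ded (b :: l) m = bif' (Nat.beq (cnt b m) 0) (ded l (b :: m)) (ded l m) from rfl, bif'_eq,
      cnt_eq]
    simp only [Nat.beq_eq, List.count_eq_zero]
    split_ifs with e <;> refine ih ?_ <;> simp only [List.mem_cons] at h ⊢
    · rcases h with (rfl | h) | h <;> simp [*]
    · tauto

/-- All multiplicities are divisible by three. -/
noncomputable def zeroC (l : List ℕ) : Bool :=
  frcL l fun l => allL (fun a => Nat.beq (Nat.mod (cnt a l) 3) 0) (ded l [])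

theorem sum_eq_zero_of_zeroC {A : Type*} [AddCommMonoid A] (h3 : ∀ x : A, 3 • x = 0) {l : List ℕ}
    (h : zeroC l = true) (f : ℕ → A) : (l.map f).sum = 0 := by
  rw [zeroC, frcL_eq, allL_eq] at h
  rw [Finset.sum_list_map_count]
  refine Finset.sum_eq_zero fun a ha => ?_
  obtain ⟨c, hc⟩ := Nat.dvd_of_mod_eq_zero (Nat.eq_of_beq_eq_true
    (h a (mem_ded (Or.inl (List.mem_toFinset.1 ha)))))
  rw [← cnt_eq, hc, mul_smul, h3]

/-- Operations on codes. -/
structure Ops where
  /-- product -/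
  mul : ℕ → ℕ → ℕ
  /-- identity -/
  one : ℕ
  /-- data to codes -/
  ld : ℕ → ℕ

namespace Ops

variable (O : Ops)

/-- Products of lists. -/
def prod (l m : List ℕ) : List ℕ := l.flatMap fun a => m.map (O.mul a)

/-- Powers. -/
noncomputable def pw (a n : ℕ) : ℕ := Nat.rec O.one (fun _ ih => O.mul a ih) n

/-- The list of powers. -/
noncomputable def pows (t : ℕ × ℕ) : List ℕ := (List.range t.2).map (O.pw (O.ld t.1))

/-- The products of powers. -/
noncomputable def gen (gs : List (ℕ × ℕ)) : List ℕ :=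
  List.rec [O.one] (fun t _ ih => frcL ih (O.prod (O.pows t))) gs

/-- Conjugation. -/
noncomputable def cj (c g r : ℕ) : Bool := Nat.beq (O.mul (O.ld c) g) (O.mul r (O.ld c))

/-- A subgroup with its class distribution. -/
noncomputable def sub (reps : List ℕ) (gs : List (ℕ × ℕ)) (cs ns : List ℕ) (n : ℕ) : Bool :=
  frcL (O.gen gs) fun l => gs.all (fun t => frcL (l.map (O.mul (O.ld t.1))) (·.isPerm l)) &&
    (l.zip cs).all (fun t => O.cj (t.2 / 8) t.1 (O.ld (reps.getD (t.2 % 8) 0))) &&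
    (List.range 8).all (fun i => (cs.map (· % 8)).count i == ns.getD i 0) &&
    l.length == n && cs.length == n

/-- `a` normalises `E`. -/
noncomputable def cm (E : List ℕ) (a : ℕ) : Bool :=
  frcL (E.map (O.mul a)) fun l => frcL (E.map (O.mul · a)) l.isPerm

/-- An identity in the group algebra over the field of order three. -/
noncomputable def idC (E X Z : List ℕ) (ts : List (List ℕ × List ℕ)) : Bool :=
  frcL E fun E => X.all (O.cm E) && ts.all (fun t => (t.2.map O.ld).all (O.cm E)) &&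
    zeroC (X ++ X ++ ts.flatMap fun t => frcL (O.prod (O.prod X (t.1.map O.ld)) Z) fun l =>
      frcL (O.prod (t.2.map O.ld) X) (O.prod l))

/-- Pass to the quotient by the powers of `z`. -/
noncomputable def nf (z a : ℕ) : ℕ :=
  frc a fun a => frc (O.mul z a) fun b => frc (O.mul z b) fun c => min (min a b) (min c (O.mul z c))

/-- The operations for the quotient. -/
noncomputable def proj (z : ℕ) : Ops := ⟨fun a b => O.nf z (O.mul a b), O.nf z O.one, fun x => O.nf z (O.ld x)⟩

/-- The value of a word in the letters `L`. -/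
noncomputable def wd (mul : ℕ → ℕ → ℕ) (one : ℕ) (L : List ℕ) (n : ℕ) : ℕ → ℕ :=
  Nat.rec (fun _ => one) (fun _ ih x => frc x fun x => bif' (Nat.beq x 0) one
    (mul (L.getD (x % 8) one) (ih (x / 8)))) n

variable {G : Type*} [Group G]

/-- The codes represent elements of `G`. -/
structure Rel (R : ℕ → G → Prop) : Prop where
  one : R O.one 1
  mul : ∀ {a b g h}, R a g → R b h → R (O.mul a b) (g * h)
  uniq : ∀ {a g h}, R a g → R a h → g = h
  ld : ∀ x, ∃ g, R (O.ld x) g

variable {O} {R : ℕ → G → Prop}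

theorem rel_wd {mul : ℕ → ℕ → ℕ} {one : ℕ} {L : List ℕ} (h1 : R one 1)
    (h2 : ∀ {a b g h}, R a g → R b h → R (mul a b) (g * h)) (h3 : ∀ a ∈ L, ∃ g, R a g) (n x : ℕ) :
    ∃ g, R (wd mul one L n x) g := by
  induction n generalizing x with
  | zero => exact ⟨1, h1⟩
  | succ n ih =>
    rw [show wd mul one L (n + 1) x = frc x fun x => bif' (Nat.beq x 0) one
      (mul (L.getD (x % 8) one) (wd mul one L n (x / 8))) from rfl, frc_eq, bif'_eq]
    split_ifs
    · exact ⟨1, h1⟩
    · obtain ⟨g, hg⟩ := ih (x / 8)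
      obtain ⟨a, ha⟩ : ∃ g, R (L.getD (x % 8) one) g := by
        rw [List.getD_eq_getElem?_getD]
        cases e : L[x % 8]? with
        | none => exact ⟨1, h1⟩
        | some a => exact h3 a (List.mem_of_getElem? e)
      exact ⟨_, h2 ha hg⟩

theorem Rel.nf (h : O.Rel R) {z : ℕ} {ζ : G} (hz : R z ζ) (hζ : ζ ∈ Subgroup.center G) {a : ℕ} {g : G}
    (ha : R a g) : ∃ g', R (O.nf z a) g' ∧ (g' : G ⧸ Subgroup.center G) = g := by
  have h1 : ∀ {a : ℕ}, (∃ g', R a g' ∧ (g' : G ⧸ Subgroup.center G) = g) →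
      ∃ g', R (O.mul z a) g' ∧ (g' : G ⧸ Subgroup.center G) = g := fun ⟨g', a, b⟩ =>
    ⟨_, h.mul hz a, by rw [QuotientGroup.mk_mul, (QuotientGroup.eq_one_iff ζ).2 hζ, one_mul, b]⟩
  have h2 : ∃ g', R a g' ∧ (g' : G ⧸ Subgroup.center G) = g := ⟨g, ha, rfl⟩
  simp only [Ops.nf, frc_eq, min_def]
  split_ifs
  exacts [h2, h1 (h1 h2), h2, h1 (h1 (h1 h2)), h1 h2, h1 (h1 h2), h1 h2, h1 (h1 (h1 h2))]

theorem Rel.proj (h : O.Rel R) {z : ℕ} {ζ : G} (hz : R z ζ) (hζ : ζ ∈ Subgroup.center G) :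
    (O.proj z).Rel fun a (g : G ⧸ Subgroup.center G) => ∃ g', R a g' ∧ g' = g where
  one := h.nf hz hζ h.one
  mul := by
    rintro a b _ _ ⟨g, ha, rfl⟩ ⟨g', hb, rfl⟩
    exact h.nf hz hζ (h.mul ha hb)
  uniq := by
    rintro a _ _ ⟨g, ha, rfl⟩ ⟨g', hb, rfl⟩
    rw [h.uniq ha hb]
  ld x := by
    obtain ⟨g, hg⟩ := h.ld x
    exact ⟨_, h.nf hz hζ hg⟩

variable (R) in
/-- The element with a given code. -/
noncomputable def el (a : ℕ) : G := @Classical.epsilon G ⟨1⟩ (R a)

variable (R) in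
/-- The codes of members of `N`. -/
def In (N : Submonoid G) (a : ℕ) : Prop := ∃ g ∈ N, R a g

variable (h : O.Rel R) {N : Submonoid G}
include h

theorem Rel.el_eq {a : ℕ} {g : G} (ha : R a g) : el R a = g :=
  h.uniq (Classical.epsilon_spec ⟨g, ha⟩) ha

theorem Rel.rel_ld (x : ℕ) : R (O.ld x) (el R (O.ld x)) := Classical.epsilon_spec (h.ld x)

theorem Rel.in_ld (x : ℕ) : In R ⊤ (O.ld x) := ⟨_, trivial, h.rel_ld x⟩

theorem Rel.el_mul {a b : ℕ} (ha : In R N a) (hb : In R N b) : el R (O.mul a b) = el R a * el R b := by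
  obtain ⟨g, -, ha⟩ := ha
  obtain ⟨g', -, hb⟩ := hb
  rw [h.el_eq ha, h.el_eq hb, h.el_eq (h.mul ha hb)]

theorem Rel.in_mul {a b : ℕ} (ha : In R N a) (hb : In R N b) : In R N (O.mul a b) := by
  obtain ⟨g, h1, ha⟩ := ha
  obtain ⟨g', h2, hb⟩ := hb
  exact ⟨_, mul_mem h1 h2, h.mul ha hb⟩

theorem Rel.rel_pw {a : ℕ} {g : G} (ha : R a g) (n : ℕ) : R (O.pw a n) (g ^ n) := by
  induction n with
  | zero => rw [pow_zero]; exact h.one
  | succ n ih => rw [pow_succ']; exact h.mul ha ih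

theorem Rel.in_prod {l m : List ℕ} (hl : ∀ a ∈ l, In R N a) (hm : ∀ a ∈ m, In R N a) :
    ∀ a ∈ O.prod l m, In R N a := fun a ha => by
  simp only [Ops.prod, List.mem_flatMap, List.mem_map] at ha
  obtain ⟨b, hb, c, hc, rfl⟩ := ha
  exact h.in_mul (hl b hb) (hm c hc)

theorem Rel.in_pows {t : ℕ × ℕ} (ht : el R (O.ld t.1) ∈ N) : ∀ a ∈ O.pows t, In R N a := fun a ha => by
  obtain ⟨n, -, rfl⟩ := List.mem_map.1 ha
  exact ⟨_, pow_mem ht n, h.rel_pw (h.rel_ld _) n⟩

omit h in
theorem gen_cons (t : ℕ × ℕ) (gs : List (ℕ × ℕ)) : O.gen (t :: gs) = O.prod (O.pows t) (O.gen gs) :=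
  frcL_eq _ _

theorem Rel.in_gen {gs : List (ℕ × ℕ)} (ht : ∀ t ∈ gs, el R (O.ld t.1) ∈ N) :
    ∀ a ∈ O.gen gs, In R N a := by
  induction gs with
  | nil => exact List.forall_mem_singleton.2 ⟨1, one_mem N, h.one⟩
  | cons t gs ih =>
    rw [gen_cons]
    exact h.in_prod (h.in_pows (ht t (by simp))) (ih fun t a => ht t (by simp [a]))

theorem Rel.in_map_ld (l : List ℕ) : ∀ a ∈ l.map O.ld, In R ⊤ a := fun a ha => by
  obtain ⟨n, -, rfl⟩ := List.mem_map.1 ha
  exact h.in_ld n

theorem Rel.pow_eq_one {x n : ℕ} (hc : O.pw (O.ld x) n = O.one) : el R (O.ld x) ^ n = 1 :=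
  h.uniq (h.rel_pw (h.rel_ld x) n) (hc ▸ h.one)

theorem Rel.of_cj {θ : G → ℂ} (hθ : IsClassFunction G θ) {c g r : ℕ} (hg : In R ⊤ g)
    (hc : O.cj c g (O.ld r) = true) : θ (el R g) = θ (el R (O.ld r)) := by
  have := congrArg (el R) (Nat.eq_of_beq_eq_true hc)
  rw [h.el_mul (h.in_ld c) hg, h.el_mul (h.in_ld r) (h.in_ld c)] at this
  rw [← hθ _ (el R (O.ld c)), this, mul_inv_cancel_right]

theorem Rel.pow_of_cj {θ : G → ℂ} (hθ : IsClassFunction G θ) {c x n r : ℕ}
    (hc : O.cj c (O.pw (O.ld x) n) (O.ld r) = true) : θ (el R (O.ld x) ^ n) = θ (el R (O.ld r)) := by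
  have := h.rel_pw (h.rel_ld x) n
  rw [← h.of_cj hθ ⟨_, trivial, this⟩ hc, h.el_eq this]

variable {A : Type*} [Ring A] (f : G →* A)

variable (R) in
/-- The sum of the images. -/
noncomputable def SS (l : List ℕ) : A := (l.map fun a => f (el R a)).sum

theorem Rel.SS_map {a : ℕ} {m : List ℕ} (ha : In R ⊤ a) (hm : ∀ a ∈ m, In R ⊤ a) :
    SS R f (m.map (O.mul a)) = f (el R a) * SS R f m := by
  rw [SS, SS, ← List.sum_map_mul_left, List.map_map]
  exact congrArg _ (List.map_congr_left fun b hb => by simp [h.el_mul ha (hm b hb)])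

theorem Rel.SS_prod {l m : List ℕ} (hl : ∀ a ∈ l, In R ⊤ a) (hm : ∀ a ∈ m, In R ⊤ a) :
    SS R f (O.prod l m) = SS R f l * SS R f m := by
  induction l with
  | nil => simp [SS, Ops.prod]
  | cons a l ih =>
    have := h.SS_map f (hl a (by simp)) hm
    have := ih fun t a => hl t (by simp [a])
    simp only [SS, Ops.prod, List.flatMap_cons, List.map_append, List.sum_append, List.map_cons,
      List.sum_cons, add_mul] at *
    simp only [*]

theorem Rel.commute {E l : List ℕ} (hE : ∀ a ∈ E, In R ⊤ a) (hl : ∀ a ∈ l, In R ⊤ a)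
    (hc : l.all (O.cm E) = true) : Commute (SS R f E) (SS R f l) := by
  refine Commute.list_sum_right _ _ fun _ hb => ?_
  obtain ⟨a, ha, rfl⟩ := List.mem_map.1 hb
  have := List.all_eq_true.1 hc a ha
  rw [cm, frcL_eq, frcL_eq, List.isPerm_iff] at this
  rw [Commute, SemiconjBy, ← h.SS_map f (hl a ha) hE, SS, SS, (this.map _).sum_eq,
    ← List.sum_map_mul_right, List.map_map]
  exact congrArg _ (List.map_congr_left fun b hb => by simp [h.el_mul (hE b hb) (hl a ha)])

variable {k V : Type*} [Field k] [AddCommGroup V] [Module k V] [FiniteDimensional k V]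

theorem Rel.rank_le [CharP k 3] (ρ : G →* End k V) {E X Z : List ℕ} {ts : List (List ℕ × List ℕ)}
    (hE : ∀ a ∈ E, In R ⊤ a) (hX : ∀ a ∈ X, In R ⊤ a) (hZ : ∀ a ∈ Z, In R ⊤ a)
    (hc : O.idC E X Z ts = true) : finrank k (LinearMap.range (SS R ρ (O.prod X E))) ≤
      ts.length * finrank k (LinearMap.range (SS R ρ (O.prod Z E))) := by
  simp only [idC, frcL_eq, Bool.and_eq_true, List.all_eq_true (l := ts)] at hc
  obtain ⟨⟨h1, h2⟩, h3⟩ := hc
  have h4 : ∀ x : End k V, 3 • x = 0 := fun x => by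
    rw [← Nat.cast_smul_eq_nsmul k, CharP.cast_eq_zero, zero_smul]
  have h5 := sum_eq_zero_of_zeroC h4 h3 fun a => ρ (el R a)
  rw [List.map_append, List.map_append, List.sum_append, List.sum_append, ← SS, ← SS,
    ← h4 (SS R ρ X), three_nsmul, ← add_assoc, add_right_inj] at h5
  rw [h.SS_prod ρ hX hE, ← h5]
  clear h3 h5
  induction ts with
  | nil =>
    rw [List.flatMap_nil, show SS R ρ [] = 0 from rfl, zero_mul, LinearMap.range_zero, finrank_bot]
    exact Nat.zero_le _
  | cons t ts ih =>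
    have h6 := h.in_map_ld t.1
    have h7 := h.in_map_ld t.2
    rw [List.flatMap_cons, SS, List.map_append, List.sum_append, ← SS, ← SS, add_mul, List.length_cons,
      add_mul, one_mul, add_comm (_ * _ : ℕ)]
    refine (Submodule.finrank_mono (LinearMap.range_add_le _ _)).trans
      ((Submodule.finrank_add_le_finrank_add_finrank _ _).trans
        (add_le_add ?_ (ih fun t a => h2 t (by simp [a]))))
    rw [h.SS_prod ρ (h.in_prod (h.in_prod hX h6) hZ) (h.in_prod h7 hX), h.SS_prod ρ (h.in_prod hX h6) hZ,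
      h.SS_prod ρ h7 hX, h.SS_prod ρ hZ hE, mul_assoc, mul_assoc, ← ((h.commute ρ hE h7
        (h2 t (by simp))).mul_right (h.commute ρ hE hX h1)).eq, ← mul_assoc (SS R ρ Z), End.mul_eq_comp,
      LinearMap.range_comp]
    exact (Submodule.finrank_map_le _ _).trans (Submodule.finrank_mono (LinearMap.range_comp_le_range _ _))

theorem Rel.rank_prod_le (ρ : G →* End k V) {E X : List ℕ} (hE : ∀ a ∈ E, In R ⊤ a)
    (hX : ∀ a ∈ X, In R ⊤ a) : finrank k (LinearMap.range (SS R ρ (O.prod X E))) ≤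
      finrank k (LinearMap.range (SS R ρ E)) := by
  rw [h.SS_prod ρ hX hE, End.mul_eq_comp, LinearMap.range_comp]
  exact Submodule.finrank_map_le _ _

theorem Rel.dim [Finite G] {M : Ideal AlgInt} {p : ℕ} (hM : IsPModular p M) {W : Type*} [AddCommGroup W]
    [Module (resField M) W] [FiniteDimensional (resField M) W] (ρ : G →* End (resField M) W)
    {reps cs ns : List ℕ} {gs : List (ℕ × ℕ)} {n : ℕ} (hc : O.sub reps gs cs ns n = true) (hn : ¬ p ∣ n) :
    ∑ i ∈ Finset.range 8, ns.getD i 0 * bc ρ (el R (O.ld (reps.getD i 0))) =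
      n * finrank (resField M) (LinearMap.range (SS R ρ (O.gen gs))) := by
  simp only [sub, frcL_eq, Bool.and_eq_true, List.all_eq_true, List.isPerm_iff, beq_iff_eq] at hc
  obtain ⟨⟨⟨⟨h1, h2⟩, h3⟩, h4⟩, h5⟩ := hc
  have h6 := h.in_gen (N := ⊤) (gs := gs) fun _ _ => trivial
  let s : Multiset G := (O.gen gs).map (el R)
  have h7 := h.in_gen (gs := gs) (N := ⟨⟨{g | s.map (g * ·) = s}, fun {a b} ha hb => by
    change s.map _ = s at *
    conv_rhs => rw [← ha, ← hb]
    simp [mul_assoc]⟩, by simp⟩) fun t ht => by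
      change s.map _ = s
      rw [Multiset.map_coe, Multiset.coe_eq_coe, List.map_map]
      refine .trans (.of_eq ?_) ((h1 t ht).map (el R))
      rw [List.map_map]
      exact List.map_congr_left fun b hb => (h.el_mul (h.in_ld _) (h6 b hb)).symm
  have h8 := sum_bc ρ hM (s := s) (fun g hg => by
    obtain ⟨a, ha, rfl⟩ := List.mem_map.1 (Multiset.mem_coe.1 hg)
    obtain ⟨g, h8, h9⟩ := h7 a ha
    rwa [h.el_eq h9]) (by simpa [s, h4])
  rw [show (s.map ρ).sum = SS R ρ (O.gen gs) by simp [s, SS, Function.comp_def]] at h8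
  simp only [s, Multiset.map_coe, Multiset.sum_coe, Multiset.coe_card, List.length_map, h4,
    List.map_map] at h8
  refine Eq.trans ?_ h8
  have h9 : (O.gen gs).map (bc ρ ∘ el R) =
      (cs.map (· % 8)).map fun i => bc ρ (el R (O.ld (reps.getD i 0))) := by
    refine List.ext_getElem (by simp [h4, h5]) fun i a b => ?_
    simp only [List.length_map] at a b
    simpa using h.of_cj (bc_conj ρ) (h6 _ (List.getElem_mem a)) (h2 ((O.gen gs)[i], cs[i])
      (List.mem_iff_getElem.2 ⟨i, by simp [a, b], by simp⟩))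
  rw [h9, Finset.sum_list_map_count]
  refine (Finset.sum_subset_zero_on_sdiff (fun i hi => ?_) (fun i hi => ?_) fun i hi => ?_).symm
  · obtain ⟨a, -, rfl⟩ := List.mem_map.1 (List.mem_toFinset.1 hi)
    exact Finset.mem_range.2 (Nat.mod_lt _ (by norm_num))
  · rw [Finset.mem_sdiff, List.mem_toFinset, ← List.count_eq_zero, Finset.mem_range] at hi
    rw [← h3 i (List.mem_range.2 hi.1), hi.2, Nat.cast_zero, zero_mul]
  · obtain ⟨a, -, rfl⟩ := List.mem_map.1 (List.mem_toFinset.1 hi)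
    rw [h3 _ (List.mem_range.2 (Nat.mod_lt _ (by norm_num))), nsmul_eq_mul]

end Ops

end Cfsg.Agent.XM.E3
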