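import Mathlib
import Cfsg.Agent.XM.WCert
import Cfsg.Prelude.Def_Classical

/-!
# Codes for symplectic and unitary matrices over the fields of order three and nine
-/

set_option autoImplicit false

namespace Cfsg.Agent.XM.E3

open Function Matrix Cfsg Cfsg.Agent.Comp Cfsg.Agent.Comp.BN Cfsg.Agent.Comp.MB

theorem Ops.Rel.proj_ne_one {G : Type*} [Group G] {O : Ops} {R : ℕ → G → Prop} (h : O.Rel R) {z : ℕ}
    {ζ : G} (hz : R z ζ) (hζ : ζ ∈ Subgroup.center G) (hR : ∀ a b g, R a g → R b g → a = b) {x y : ℕ}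
    (hc : O.mul ((O.proj z).ld x) (O.ld y) ≠ O.mul (O.ld y) ((O.proj z).ld x)) :
    Ops.el (fun a (g : G ⧸ Subgroup.center G) => ∃ g', R a g' ∧ g' = g) ((O.proj z).ld x) ≠ 1 := by
  obtain ⟨g, h1, h2⟩ := (h.proj hz hζ).rel_ld x
  intro e
  have h3 := Subgroup.mem_center_iff.1 ((QuotientGroup.eq_one_iff g).1 (h2.trans e)) (Ops.el R (O.ld y))
  exact hc (hR _ _ _ (h.mul h1 (h.rel_ld y)) (h3 ▸ h.mul (h.rel_ld y) h1))

/-- Parameters. -/
def qq (m : ℕ) : Par := ⟨3, 8, m + m, 2, 11, 5, 2, 6⟩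

/-- The block matrix of a code. -/
def sb (m a : ℕ) : Matrix (Fin m ⊕ Fin m) (Fin m ⊕ Fin m) (ZMod 3) :=
  ((qq m).mat a).submatrix finSumFinEquiv finSumFinEquiv

/-- The product of codes. -/
noncomputable def mulQ (m a b : ℕ) : ℕ := frc a fun a => frc b fun b => (qq m).mul a b

/-- Words in matrices. -/
noncomputable def mOps (m : ℕ) (L : List ℕ) : Ops :=
  ⟨mulQ m, (qq m).one, Ops.wd (mulQ m) (qq m).one (L.map (qq m).ld) 40⟩

variable {m : ℕ} (hq : (qq m).ok = true) {H B : Type*} [Group H] [Monoid B] (κ : H →* B)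
  (P : Matrix (Fin m ⊕ Fin m) (Fin m ⊕ Fin m) (ZMod 3) → Prop)
  (ψ : Matrix (Fin m ⊕ Fin m) (Fin m ⊕ Fin m) (ZMod 3) → B)

/-- The code `a` represents `g`. -/
def MR (a : ℕ) (g : H) : Prop := (qq m).Valid a ∧ P (sb m a) ∧ κ g = ψ (sb m a)

include hq

theorem rel_mOps (hκ : Injective κ) (h1 : P 1 ∧ ψ 1 = 1)
    (h2 : ∀ X Y, P X → P Y → P (X * Y) ∧ ψ (X * Y) = ψ X * ψ Y) {L : List ℕ}
    (hL : ∀ a ∈ L, P (sb m ((qq m).ld a)) ∧ ∃ g, κ g = ψ (sb m ((qq m).ld a))) :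
    (mOps m L).Rel (MR κ P ψ) := by
  have a1 : MR κ P ψ (qq m).one 1 := by
    have : sb m (qq m).one = 1 := by
      rw [sb, Par.mat_one hq]; exact submatrix_one_equiv _
    exact ⟨Par.valid_one hq, this ▸ h1.1, by rw [this, h1.2, map_one]⟩
  have a2 : ∀ {a b g h}, MR κ P ψ a g → MR κ P ψ b h → MR κ P ψ (mulQ m a b) (g * h) := by
    rintro a b g h ⟨a1, a2, a3⟩ ⟨b1, b2, b3⟩
    rw [mulQ, frc_eq, frc_eq]
    have : sb m ((qq m).mul a b) = sb m a * sb m b := by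
      rw [sb, Par.mat_mul hq a1 b1]; exact (submatrix_mul_equiv _ _ _ _ _).symm
    exact ⟨a1.mul hq b1, this ▸ (h2 _ _ a2 b2).1, by rw [this, (h2 _ _ a2 b2).2, map_mul, a3, b3]⟩
  refine ⟨a1, a2, fun a b => hκ (a.2.2.trans b.2.2.symm), Ops.rel_wd a1 a2 (fun a ha => ?_) 40⟩
  obtain ⟨x, hx, rfl⟩ := List.mem_map.1 ha
  exact (hL x hx).2.imp fun g hg => ⟨Par.valid_ld hq x, (hL x hx).1, hg⟩

theorem MR.inj (hψ : ∀ X Y, P X → P Y → ψ X = ψ Y → X = Y) (a b : ℕ) (g : H) (ha : MR κ P ψ a g)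
    (hb : MR κ P ψ b g) : a = b := by
  have e : (qq m).mat a = (qq m).mat b := (Matrix.reindex finSumFinEquiv.symm finSumFinEquiv.symm).injective
    (hψ _ _ ha.2.1 hb.2.1 (ha.2.2.symm.trans hb.2.2))
  refine Dig.ext_dig (Par.ok_spec hq).1.2.2.1 fun x => ?_
  by_cases hx : x < (qq m).d * (qq m).d
  · have hd := (Par.ok_spec hq).1.2.1
    have := (Par.row_eq_iff hq ha.1 hb.1 (x / (qq m).d) (x / (qq m).d)).2
      (congrFun e ⟨_, (Nat.div_lt_iff_lt_mul hd).2 hx⟩)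
    have := congrArg (Dig.dig (qq m).f · (x % (qq m).d)) this
    simpa only [Par.dig_row, if_pos (Nat.mod_lt x hd), Nat.div_add_mod'] using this
  · rw [Dig.dig_eq_zero_of_lt ha.1.1 (not_lt.1 hx), Dig.dig_eq_zero_of_lt hb.1.1 (not_lt.1 hx)]

theorem exists_rel_Sp {L : List ℕ} {z : ℕ} (hz : sb m ((qq m).ld z) = -1)
    (hL : ∀ a ∈ L, sb m ((qq m).ld a) * J _ _ * (sb m ((qq m).ld a))ᵀ = J _ _) :
    ∃ R : ℕ → PSp m (ZMod 3) → Prop, ((mOps m L).proj ((qq m).ld z)).Rel R ∧ ∀ x y,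
      mulQ m (((mOps m L).proj ((qq m).ld z)).ld x) ((mOps m L).ld y) ≠
        mulQ m ((mOps m L).ld y) (((mOps m L).proj ((qq m).ld z)).ld x) →
      Ops.el R (((mOps m L).proj ((qq m).ld z)).ld x) ≠ 1 := by
  have h := rel_mOps hq (symplecticGroup (Fin m) (ZMod 3)).subtype (fun _ => True) id
    Subtype.val_injective ⟨trivial, rfl⟩ (fun _ _ _ _ => ⟨trivial, rfl⟩)
    fun a ha => ⟨trivial, ⟨_, hL a ha⟩, rfl⟩
  have h1 : MR (symplecticGroup (Fin m) (ZMod 3)).subtype (fun _ => True) id ((qq m).ld z)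
      ⟨-1, SymplecticGroup.neg_mem (one_mem _)⟩ := ⟨Par.valid_ld hq z, trivial, hz.symm⟩
  have h2 : (⟨-1, SymplecticGroup.neg_mem (one_mem _)⟩ : symplecticGroup (Fin m) (ZMod 3)) ∈
      Subgroup.center _ := Subgroup.mem_center_iff.2 fun g => Subtype.ext (by simp)
  exact ⟨_, h.proj h1 h2, fun x y => h.proj_ne_one h1 h2 (MR.inj hq _ _ _ fun _ _ _ _ e => e)⟩

/-- Matrices that are linear over the field of order nine. -/
def Lin9 (X : Matrix (Fin m ⊕ Fin m) (Fin m ⊕ Fin m) (ZMod 3)) : Prop :=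
  X.toBlocks₂₂ = X.toBlocks₁₁ ∧ X.toBlocks₁₂ = -X.toBlocks₂₁

omit hq in
theorem Lin9.eq {X : Matrix (Fin m ⊕ Fin m) (Fin m ⊕ Fin m) (ZMod 3)} (h : Lin9 X) :
    ∃ A C, X = fromBlocks A (-C) C A :=
  ⟨_, _, (fromBlocks_toBlocks X).symm.trans (by rw [h.1, h.2])⟩

theorem exists_rel_SU {F : Type*} [Field F] [Fintype F] (h9 : Fintype.card F = 9) (hm : 4 ∣ m)
    {L : List ℕ} {z : ℕ} (hz : sb m ((qq m).ld z) = fromBlocks 0 (-1) 1 0)
    (hL : ∀ a ∈ L, ∀ X, X = sb m ((qq m).ld a) →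
      (X.toBlocks₂₂ = X.toBlocks₁₁ ∧ X.toBlocks₁₂ = -X.toBlocks₂₁) ∧ Xᵀ * X = 1 ∧ X * X = Xᵀ) :
    ∃ R : ℕ → PSU m F 3 → Prop, ((mOps m L).proj ((qq m).ld z)).Rel R ∧ ∀ x y,
      mulQ m (((mOps m L).proj ((qq m).ld z)).ld x) ((mOps m L).ld y) ≠
        mulQ m ((mOps m L).ld y) (((mOps m L).proj ((qq m).ld z)).ld x) →
      Ops.el R (((mOps m L).proj ((qq m).ld z)).ld x) ≠ 1 := by
  have : CharP F 3 := charP_of_card_eq_prime_pow (f := 2) h9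
  obtain ⟨ω, hω⟩ := (FiniteField.isSquare_neg_one_iff (F := F)).2 (by rw [h9]; norm_num)
  let ι := ZMod.castHom (dvd_refl 3) F
  let ψ : Matrix (Fin m ⊕ Fin m) (Fin m ⊕ Fin m) (ZMod 3) → Matrix (Fin m) (Fin m) F := fun X =>
    X.toBlocks₁₁.map ι + ω • X.toBlocks₂₁.map ι
  have h1 : Lin9 (m := m) 1 ∧ ψ 1 = 1 := by
    rw [← fromBlocks_one]; simp [-fromBlocks_one, Lin9, ψ]
  have h2 : ∀ X Y, Lin9 X → Lin9 Y → Lin9 (X * Y) ∧ ψ (X * Y) = ψ X * ψ Y := fun X Y hX hY => by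
    obtain ⟨A, C, rfl⟩ := hX.eq
    obtain ⟨A', C', rfl⟩ := hY.eq
    simp only [Lin9, ψ, fromBlocks_multiply, toBlocks_fromBlocks₁₁, toBlocks_fromBlocks₂₁,
      toBlocks_fromBlocks₂₂, toBlocks_fromBlocks₁₂, ← RingHom.mapMatrix_apply, map_add, map_mul, map_neg,
      add_mul, mul_add, smul_mul_assoc, mul_smul_comm]
    refine ⟨⟨by noncomm_ring, by noncomm_ring⟩, ?_⟩
    simp only [neg_mul, smul_add, smul_smul, ← hω, neg_smul, one_smul]
    abel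
  have h3 : ∀ X, Lin9 X → Xᵀ * X = 1 → ∀ e : (ψ X).det = 1,
      (⟨ψ X, e⟩ : SpecialLinearGroup (Fin m) F) ∈ SU m F 3 := fun X hX h e u v => by
    have k1 : ψ Xᵀ = ((ψ X).map (frobenius F 3))ᵀ := by
      obtain ⟨A, C, rfl⟩ := hX.eq
      have e1 : ∀ x, frobenius F 3 (ι x) = ι x := fun x => by
        rw [frobenius_def, ← map_pow, ZMod.pow_card]
      have e2 : frobenius F 3 ω = -ω := by rw [frobenius_def, pow_succ, sq, ← hω, neg_one_mul]
      ext i j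
      simp [-ZMod.castHom_apply, ψ, fromBlocks_transpose, e1, e2]
    have k2 : Lin9 Xᵀ := by
      obtain ⟨A, C, rfl⟩ := hX.eq
      simp [Lin9, fromBlocks_transpose]
    have k3 := congrArg transpose (h2 _ _ k2 hX).2
    rw [h, h1.2, k1, transpose_mul, transpose_transpose, transpose_one] at k3
    change (ψ X *ᵥ u) ⬝ᵥ (fun i => frobenius F 3 ((ψ X *ᵥ v) i)) = u ⬝ᵥ (frobenius F 3 ∘ v)
    simp only [RingHom.map_mulVec]
    rw [← vecMul_transpose, ← dotProduct_mulVec, mulVec_mulVec, ← k3, one_mulVec]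
  let κ : SU m F 3 →* Matrix (Fin m) (Fin m) F := (slToMat m F).comp (SU m F 3).subtype
  have h := rel_mOps hq κ Lin9 ψ (Subtype.val_injective.comp Subtype.val_injective) h1 h2 fun a ha => by
    obtain ⟨a1, a2, a3⟩ := hL a ha _ rfl
    refine ⟨a1, ⟨_, h3 _ a1 a2 ?_⟩, rfl⟩
    have := congrArg det (h2 _ _ (h2 _ _ a1 a1).1 a1).2
    rw [(h2 _ _ a1 a1).2, a3, a2, h1.2, det_one, det_mul, det_mul, ← pow_three', ← one_pow 3] at this
    exact (frobenius_inj F 3 this).symm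
  have h4 : ψ (fromBlocks 0 (-1) 1 0) = ω • 1 := by simp [ψ]
  have h5 : Lin9 (m := m) (fromBlocks 0 (-1) 1 0) := by simp [Lin9]
  have h6 := h3 _ h5 (by simp [fromBlocks_transpose, fromBlocks_multiply]) (by
    obtain ⟨n, rfl⟩ := hm
    rw [h4, det_smul, det_one, Fintype.card_fin, pow_mul, show ω ^ 4 = ω * ω * (ω * ω) by ring, ← hω]
    simp)
  have h7 : MR κ Lin9 ψ ((qq m).ld z) ⟨_, h6⟩ := ⟨Par.valid_ld hq z, hz ▸ h5, by rw [hz]; rfl⟩
  have h8 : (⟨_, h6⟩ : SU m F 3) ∈ Subgroup.center _ := Subgroup.mem_center_iff.2 fun g =>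
    Subtype.ext (Subtype.ext (show g.1.1 * ψ _ = ψ _ * g.1.1 by simp [h4]))
  refine ⟨_, h.proj h7 h8, fun x y => h.proj_ne_one h7 h8 (MR.inj hq _ _ _ fun X Y hX hY e => ?_)⟩
  obtain ⟨A, C, rfl⟩ := hX.eq
  obtain ⟨A', C', rfl⟩ := hY.eq
  have : ∀ i j, A i j - A' i j = 0 ∧ C i j - C' i j = 0 := fun i j => by
    refine (by decide : ∀ a b : ZMod 3, a * a + b * b = 0 → a = 0 ∧ b = 0) _ _ (ι.injective ?_)
    have := congrFun (congrFun e i) j
    simp only [ψ, toBlocks_fromBlocks₁₁, toBlocks_fromBlocks₂₁, Matrix.add_apply, Matrix.smul_apply, Matrix.map_apply,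
      smul_eq_mul] at this
    simp only [map_add, map_mul, map_sub, map_zero]
    linear_combination (ι (A i j) - ι (A' i j) - ω * (ι (C i j) - ι (C' i j))) * this -
      (ι (C i j) - ι (C' i j)) ^ 2 * hω
  obtain rfl : A = A' := Matrix.ext fun i j => sub_eq_zero.1 (this i j).1
  obtain rfl : C = C' := Matrix.ext fun i j => sub_eq_zero.1 (this i j).2
  rfl

end Cfsg.Agent.XM.E3
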