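import Mathlib
import Cfsg.Agent.XM.MatOrc
import Cfsg.Agent.XM.E8Three

/-!
# `PSp₆(3)` is not a subgroup of `E₈(3)`
-/

set_option autoImplicit false

namespace Cfsg.Agent.XM.E3.Sp

open Module Matrix Cfsg Cfsg.Agent.Block

/-- The letters. -/
def L : List ℕ :=
  [1180663682709764194305, 1180663682709764194369, 1180663678380437160064, 1180609652708375269380,
    295165989946673598480, 1180699751089201778693, 1180736866203710013441, 1180663682726944063489]

/-- The operations. -/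
noncomputable def O : Ops := (mOps 3 L).proj ((qq 3).ld 2361327365419528388610)

theorem ok : (qq 3).ok = true := by decide +kernel

theorem hz : sb 3 ((qq 3).ld 2361327365419528388610) = -1 := by decide +kernel

theorem hL : ∀ a ∈ L, sb 3 ((qq 3).ld a) * J _ _ * (sb 3 ((qq 3).ld a))ᵀ = J _ _ := by decide +kernel

theorem sub : O.sub [0, 215458, 3, 154, 17634]
  [(10086546, 2), (414, 2), (1127586, 2), (1124514, 2), (599698, 2), (9370, 2), (9874, 2)]
  [0, 18, 210, 2282, 147, 42, 234, 3, 427, 211, 19, 3307, 146, 43, 235, 2, 1614420, 26411, 2347,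
    26516, 26923, 148, 4, 1835, 20, 19691, 299, 1172, 2283, 212116, 3316, 2475, 403, 2963, 23763,
    3283, 11155, 242, 50, 27539, 51, 1907, 371, 3219, 10099, 402, 370, 1395, 865, 41556, 1940, 3785,
    3220, 29897, 30345, 52, 3721, 15508, 244, 242889, 404, 13153, 457, 25748, 2073292, 7412627,
    924563, 132691084, 6953875, 2070156, 16724684, 1100691, 133797516, 2201, 1, 16586380, 1689,
    258764, 16561292, 1945, 14689, 959046732, 121943116, 116065, 119907404, 39689, 258761, 1873484,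
    838547, 130356812, 15242828, 9509779, 14988364, 9051027, 1186707, 130331276, 138131, 2089676,
    16557708, 1121171, 16619148, 1105107, 662419, 16585932, 25, 132687500, 16720588, 3225, 2077388,
    409, 153, 2069708, 121942668, 17761, 2401, 120108108, 26977, 14984780, 15504972, 10593,
    14987916, 404371, 52115, 124294732, 416979, 15013452, 121939532, 576403]
  [1, 24, 11, 44, 48] 128 = true := by decide +kernel

theorem rel : O.pw (O.ld 215458) 2 = O.one ∧ O.pw (O.ld 3) 2 = O.one ∧ O.pw (O.ld 17634) 8 = O.one ∧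
    O.pw (O.ld 0) 1 = O.one ∧ O.cj 53 (O.pw (O.ld 17634) 2) (O.ld 154) = true ∧
    O.cj 285 (O.pw (O.ld 17634) 4) (O.ld 3) = true ∧
    mulQ 3 (O.ld 215458) ((mOps 3 L).ld 1) ≠ mulQ 3 ((mOps 3 L).ld 1) (O.ld 215458) ∧
    mulQ 3 (O.ld 3) ((mOps 3 L).ld 1) ≠ mulQ 3 ((mOps 3 L).ld 1) (O.ld 3) := by decide +kernel

theorem fin : ∀ t ∈ L8, ∀ b ∈ [24, -8], 248 + 24 * b + 11 * t.2.2 + 44 * t.2.1 + 48 * t.1 < 0 ∨
    (248 + 24 * b + 11 * t.2.2 + 44 * t.2.1 + 48 * t.1) % 128 ≠ 0 := by decide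

theorem not_ad3 {M : Ideal AlgInt} (hM : IsPModular 3 M) {V : Type*} [AddCommGroup V]
    [Module (resField M) V] [FiniteDimensional (resField M) V]
    (ρ : PSp 3 (ZMod 3) →* End (resField M) V) : ¬ Ad3 ρ := by
  intro h
  obtain ⟨R, hR, hn⟩ := exists_rel_Sp ok hz hL
  change O.Rel R at hR
  obtain ⟨a1, a2, a3, a0, a4, a5, a6, a7⟩ := rel
  have k := hR.dim hM ρ sub (by norm_num)
  have k0 := hR.pow_eq_one a0
  have k1 := h.tr2 hM (hR.pow_eq_one a1) (hn _ _ a6)
  have k4 := hR.pow_of_cj (bc_conj ρ) a4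
  have k5 := hR.pow_of_cj (bc_conj ρ) a5
  obtain ⟨t, ht, k6, k7, k8⟩ := h.tr8 hM (hR.pow_eq_one a3) fun e => h.ne248 hM (hR.pow_eq_one a2)
    (hn _ _ a7) (by rw [← k5, e, h.one hM])
  obtain ⟨b, hb, k9⟩ : ∃ b ∈ [24, -8], bc ρ (Ops.el R (O.ld 215458)) = (b : ℤ) := by simpa using k1
  generalize finrank (resField M) (LinearMap.range (Ops.SS R ρ _)) = r at k
  rw [pow_one] at k0
  simp only [Finset.sum_range_succ, Finset.sum_range_zero, List.getD_cons_succ, List.getD_cons_zero,
    List.getD_nil, ← k4, ← k5, k0, k6, k7, k8, k9, h.one hM] at k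
  have := fin t ht b hb
  norm_cast at k
  omega

end Cfsg.Agent.XM.E3.Sp
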