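import Mathlib
import Cfsg.Agent.XM.E8U43D
import Cfsg.Agent.XM.E8Three

/-!
# `U₄(3)` is not a subgroup of `E₈(3)`
-/

set_option autoImplicit false

namespace Cfsg.Agent.XM.E3.SU

open Module Matrix Cfsg Cfsg.Agent.Block

theorem fin : ∀ t ∈ L8, ∀ u ∈ L4, ∀ τ ∈ [23, -2, 3], u.2 = t.2.2 → ∀ B : ℤ,
    B = 248 + 19 * u.2 + 24 * u.1 + 4 * t.2.1 + 16 * t.1 → ∀ C, C = 248 + 15 * u.2 + 64 * τ → ∀ D,
    D = 248 + 35 * u.2 + 56 * u.1 + 20 * t.2.1 + 16 * t.1 → ¬ (B % 64 = 0 ∧ C % 80 = 0 ∧ D % 128 = 0 ∧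
      B ≤ 4 * (248 + 15 * u.2) ∧ 5 * B ≤ 44 * C ∧ 4 * C ≤ 5 * B) := by
  simp only [forall_eq]
  decide

theorem not_ad3 {F : Type*} [Field F] [Fintype F] (h9 : Fintype.card F = 9) {M : Ideal AlgInt}
    (hM : IsPModular 3 M) {V : Type*} [AddCommGroup V] [Module (resField M) V]
    [FiniteDimensional (resField M) V] (ρ : PSU 4 F 3 →* End (resField M) V) : ¬ Ad3 ρ := by
  intro h
  have := charP_resField hM
  obtain ⟨R, hR, hn⟩ := exists_rel_SU ok h9 dvd_rfl hz hL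
  change O.Rel R at hR
  obtain ⟨a0, a1, a2, a3, a4, a5, a6, a7, a8, a9⟩ := rel
  have kE := hR.dim hM ρ subE (by norm_num)
  have kS := hR.dim hM ρ subS (by norm_num)
  have kT := hR.dim hM ρ subT (by norm_num)
  have kY := hR.dim hM ρ subY (by norm_num)
  have iE := hR.in_gen (N := ⊤) (gs := gE) fun _ _ => trivial
  have iP := fun t => hR.in_pows (N := ⊤) (t := t) trivial
  have l1 := hR.rank_le ρ iE (iP _) (iP _) id1
  have l2 := hR.rank_le ρ iE (iP _) (iP _) id2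
  have l3 := hR.rank_prod_le ρ iE (iP (6939, 4))
  rw [← Ops.gen_cons] at l1 l2 l3
  rw [← Ops.gen_cons] at l1 l2
  have k0 := hR.pow_eq_one a0
  have k1 := hR.pow_of_cj (bc_conj ρ) a5
  have k2 := hR.pow_of_cj (bc_conj ρ) a6
  have k3 := hR.pow_of_cj (bc_conj ρ) a7
  have k4 := h.ne248 hM (hR.pow_eq_one a1) (hn _ _ a8)
  obtain ⟨t, ht, k5, k6, k7⟩ := h.tr8 hM (hR.pow_eq_one a3) fun e => k4 (by rw [← k3, e, h.one hM])
  obtain ⟨u, hu, k8, k9⟩ := h.tr4 hM (hR.pow_eq_one a2) fun e => k4 (by rw [← k1, e, h.one hM])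
  obtain ⟨τ, hτ, k10⟩ : ∃ b ∈ [23, -2, 3], bc ρ (Ops.el R (O.ld 33)) = (b : ℤ) := by
    simpa [or_assoc] using (h.tr5 hM (hR.pow_eq_one a4) (hn _ _ a9)).1
  have := fin t ht u hu τ hτ (by exact_mod_cast k9.symm.trans (k1.trans (k3.symm.trans k7))) _ rfl _ rfl _ rfl
  generalize finrank (resField M) (LinearMap.range (Ops.SS R ρ (O.gen gE))) = r1 at *
  generalize finrank (resField M) (LinearMap.range (Ops.SS R ρ (O.gen ((6939, 4) :: gE)))) = r2 at *
  generalize finrank (resField M) (LinearMap.range (Ops.SS R ρ (O.gen ((107820, 5) :: gE)))) = r3 at *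
  generalize finrank (resField M) (LinearMap.range (Ops.SS R ρ (O.gen _))) = r4 at kT
  rw [pow_one] at k0
  simp only [reps, Finset.sum_range_succ, Finset.sum_range_zero, List.getD_cons_succ, List.getD_cons_zero,
    List.getD_nil, ← k1, ← k2, k0, k5, k6, k8, k9, k10, h.one hM] at kE kS kT kY
  simp only [List.length_cons, List.length_nil] at l1 l2
  push_cast at kE kS kT kY
  have e1 : 248 + 15 * u.2 = 16 * r1 := Int.cast_injective (α := ℂ) (by push_cast; linear_combination kE)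
  have e2 : 248 + 19 * u.2 + 24 * u.1 + 4 * t.2.1 + 16 * t.1 = 64 * r2 :=
    Int.cast_injective (α := ℂ) (by push_cast; linear_combination kS)
  have e3 : 248 + 15 * u.2 + 64 * τ = 80 * r3 :=
    Int.cast_injective (α := ℂ) (by push_cast; linear_combination kY)
  have e4 : 248 + 35 * u.2 + 56 * u.1 + 20 * t.2.1 + 16 * t.1 = 128 * r4 :=
    Int.cast_injective (α := ℂ) (by push_cast; linear_combination kT)
  omega

end Cfsg.Agent.XM.E3.SU
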