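import Mathlib
import Cfsg.Agent.Chev.ASRep

/-!
# Eigenvalues of semisimple elements of `E₈(q)` on the Lie algebra
-/

set_option autoImplicit false

namespace Cfsg.Agent.XM

open Polynomial Cfsg.Lie Cfsg.Agent.Chev Cfsg.Agent.Lang Cfsg.Agent.Chev.AS

/-- The values of the weights of the adjoint module. -/
def adW (D : ChevalleyDatum) (v : ℕ → ℤ) : Multiset ℤ :=
  Multiset.replicate D.rank 0 + Finset.univ.val.map fun s : Rt D => evY D v s

theorem wtsOf_map (D : ChevalleyDatum) {y : List ℤ} (h : ∀ r < D.nroots, evY D (vecL y) r = 0)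
    {l : ℕ} (hl : l = D.rank) (v : ℕ → ℤ) :
    (((wtsOf D l y 0).map (dt · v) : List ℤ) : Multiset ℤ) = adW D v := by
  subst hl
  rw [wtsOf, if_pos rfl, List.filter_eq_self.2 (by simpa using h), List.map_append,
    ← Multiset.coe_add, adW, Fin.univ_val_map, List.ofFn_eq_map, List.map_replicate,
    ← List.map_coe_finRange_eq_range (n := D.nroots), List.map_map, List.map_map]
  congr 2
  · simp [dt_eq_sum, vecL]
  · refine List.map_congr_left fun s _ => ?_
    rw [Function.comp_apply, Function.comp_apply, dt_eq_sum, List.length_map, List.length_range,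
      Finset.sum_range]
    exact Finset.sum_congr rfl fun i _ => by simp [vecL, mul_comm]

theorem adW_smul (D : ChevalleyDatum) {n : ℕ} {q : ℤ} {v v' : ℕ → ℤ}
    (h : ∀ j < D.rank, (v' j : ZMod n) = q * v j) :
    (adW D v').map (Int.cast : ℤ → ZMod n) = ((adW D v).map Int.cast).map ((q : ZMod n) * ·) := by
  simp only [adW, Multiset.map_add, Multiset.map_replicate, Multiset.map_map, Int.cast_zero, mul_zero]
  exact congrArg _ (Multiset.map_congr rfl fun s _ => by simp [evY, h, Finset.mul_sum, mul_assoc])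

/-- The eigenvalues of a semisimple element. -/
theorem exists_adW {D : ChevalleyDatum} [Good D] (T : RootTable D)
    (hD : D ∈ [chevG2, chevF4, chevE8]) {F k : Type*} [Field F] [Fintype F] [Field k]
    [IsAlgClosed k] (ι : F →+* k) (p : ℕ) [Fact p.Prime] [CharP k p] {n : ℕ} [NeZero n]
    (hn : n.Coprime p) {u : D.group F} (hu : u ^ n = 1) {ζ : kˣ} (hζ : IsPrimitiveRoot ζ n)
    {M : Multiset ℤ} (hM : (((u : GL D.Idx F) : Matrix D.Idx D.Idx F).map ι).charpoly =
      (M.map fun j => X - C ((ζ ^ j : kˣ) : k)).prod) :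
    ∃ v v' : ℕ → ℤ, M.map (Int.cast : ℤ → ZMod n) = (adW D v).map Int.cast ∧ adW D v' = adW D v ∧
      (∀ j < D.rank, (v' j : ZMod n) = (Fintype.card F : ℤ) * v j) ∧
      ((∀ j < D.rank, (n : ℤ) ∣ v j) → u = 1) := by
  classical
  obtain ⟨g, c, w, h1, h2⟩ := exists_twisted_torus T p ι hn hu
  have h3 : c ^ n = 1 := torC_injective T hD k (by
    have := congrArg (· ^ n) h1
    simp only [← map_pow, hu, map_one, conj_pow] at this
    rw [map_one, ← mul_right_inj g, ← mul_left_inj g⁻¹, ← this]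
    simp)
  have h4 : ∀ i, ∃ x : ℤ, ζ ^ x = c i := fun i => by
    obtain ⟨x, -, h⟩ := (IsPrimitiveRoot.coe_units_iff.2 hζ).eq_pow_of_pow_eq_one (ξ := (c i : k)) (by
      rw [← Units.val_pow_eq_pow_val, show c i ^ n = 1 from congrFun h3 i, Units.val_one])
    exact ⟨x, Units.ext (by simpa using h)⟩
  choose x hx using h4
  let v : ℕ → ℤ := fun j => if h : j < D.rank then x ⟨j, h⟩ else 0
  have hv : ∀ i : Fin D.rank, v i = x i := fun i => by simp [v]
  let v' : ℕ → ℤ := fun j => if h : j < D.rank then ∑ i, x i * wmat T w i ⟨j, h⟩ else 0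
  have h5 : ∀ a b : ℤ, ζ ^ a = ζ ^ b ↔ (a : ZMod n) = b := fun a b => by
    rw [← mul_inv_eq_one, ← zpow_sub, hζ.zpow_eq_one_iff_dvd, ZMod.intCast_eq_intCast_iff_dvd_sub,
      dvd_sub_comm]
  refine ⟨v, v', ?_, ?_, fun j hj => ?_, fun h => fieldHom_injective ι ?_⟩
  · rw [← coe_coe_fieldHom, h1, Subgroup.coe_mul, Subgroup.coe_mul, Subgroup.coe_inv, Units.val_mul,
      Units.val_mul, Matrix.coe_units_inv, Matrix.charpoly_units_conj,
      coe_torC, tor_apply, coe_diagHom, Matrix.charpoly_diagonal] at hM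
    have h6 : (M.map fun j => ((ζ ^ j : kˣ) : k)) = (adW D v).map fun j => ((ζ ^ j : kˣ) : k) := by
      rw [← roots_multiset_prod_X_sub_C (M.map _), ← roots_multiset_prod_X_sub_C ((adW D v).map _),
        Multiset.map_map, Multiset.map_map]
      refine congrArg roots (hM.symm.trans ?_)
      rw [adW, Multiset.map_add, Multiset.prod_add, Multiset.map_map, Fintype.prod_sum_type]
      congr 1
      · simp
      · refine Finset.prod_congr rfl fun s _ => congrArg (fun a : kˣ => X - C (a : k)) ?_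
        simp only [torChar, evY, hv, ← hx, zpow_sum_eq, zpow_mul]
    refine Multiset.map_injective (f := fun a : ZMod n => ((ζ ^ (a.val : ℤ) : kˣ) : k))
      (fun a b h => by simpa using (h5 _ _).1 (Units.ext h)) ?_
    have h7 : ∀ j : ℤ, ζ ^ ((j : ZMod n).val : ℤ) = ζ ^ j := fun j => (h5 _ _).2 (by simp)
    simpa only [Multiset.map_map, Function.comp_def, h7] using h6
  · let e : Rt D ≃ Rt D := Equiv.ofBijective
      (fun s => ⟨T.act w s, T.lt_iff.2 (T.act_lt w (T.lt_iff.1 s.2))⟩)
      (Finite.injective_iff_bijective.1 fun a b h => Fin.ext ((T.act w).injective (congrArg Fin.val h)))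
    rw [adW, adW]
    nth_rewrite 1 [← Finset.map_univ_equiv e]
    rw [Finset.map_val, Multiset.map_map]
    refine congrArg _ (Multiset.map_congr rfl fun s _ => ?_)
    change evY D v' (T.act w s) = _
    simp only [evY, v', Fin.is_lt, dite_true, Finset.sum_mul, hv]
    rw [Finset.sum_comm]
    refine Finset.sum_congr rfl fun i _ => ?_
    rw [← T.pairing_simple, ← T.pairing_act w (T.simple_lt i) (T.lt_iff.1 s.2), pairing_eq,
      Finset.mul_sum]
    exact Finset.sum_congr rfl fun j _ => mul_assoc _ _ _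
  · have := congrFun (torC_injective T hD k h2) ⟨j, hj⟩
    rw [← Int.cast_mul, ← h5, show v j = _ from hv ⟨j, hj⟩, mul_comm, zpow_mul, hx, zpow_natCast]
    simp only [v', hj, dite_true, zpow_sum_eq, zpow_mul, hx]
    exact this.symm
  · rw [h1, show c = 1 from funext fun i => by
      rw [← hx, ← hv, (hζ.zpow_eq_one_iff_dvd _).2 (h i i.2), Pi.one_apply]]
    simp

theorem sum_map_count {A : Type*} [Fintype A] [DecidableEq A] {R : Type*} [Semiring R]
    (N : Multiset A) (f : A → R) : (N.map f).sum = ∑ a, N.count a * f a := by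
  induction N using Multiset.induction_on with
  | empty => simp
  | cons a N ih => simp [ih, Multiset.count_cons, add_mul, Finset.sum_add_distrib, add_comm]

theorem adW8 (v : ℕ → ℤ) : ((alc8.W.map (dt · v) : List ℤ) : Multiset ℤ) = adW chevE8 v := by
  rw [← wts8, wtsOf_map _ lev_emb8 (by decide +kernel)]

/-- The quadratic form on the coroot lattice. -/
def Q8 (v : ℕ → ℤ) : ℤ := v 0 ^ 2 + v 1 ^ 2 + v 2 ^ 2 + v 3 ^ 2 + v 4 ^ 2 + v 5 ^ 2 + v 6 ^ 2 + v 7 ^ 2
  - v 0 * v 2 - v 1 * v 3 - v 2 * v 3 - v 3 * v 4 - v 4 * v 5 - v 5 * v 6 - v 6 * v 7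

set_option maxRecDepth 100000 in
set_option maxHeartbeats 4000000 in
theorem sum_pow (v : ℕ → ℤ) : ((adW chevE8 v).map (· ^ 2)).sum = 120 * Q8 v ∧
    ((adW chevE8 v).map (· ^ 4)).sum = 144 * Q8 v ^ 2 := by
  have h0 : Int.ofNat (nat_lit 0) = 0 := rfl
  have h1 : Int.ofNat (nat_lit 1) = 1 := rfl
  have h2 : Int.ofNat (nat_lit 2) = 2 := rfl
  have h3 : Int.negSucc (nat_lit 0) = -1 := rfl
  have h4 : Int.negSucc (nat_lit 1) = -2 := rfl
  rw [← adW8, Multiset.map_coe, Multiset.map_coe, Multiset.sum_coe, Multiset.sum_coe]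
  simp only [alc8, List.map_cons, List.map_nil, List.sum_cons, List.sum_nil, dt, h0, h1, h2, h3, h4,
    zero_mul, one_mul, add_zero, zero_add, Q8]
  constructor <;> ring

variable {F k : Type*} [Field F] [Fintype F] [Field k] [IsAlgClosed k] (ι : F →+* k) (p : ℕ)
  [Fact p.Prime] [CharP k p] {n : ℕ} [NeZero n] (hn : n.Coprime p) {u : chevE8.group F}
  (hu : u ^ n = 1) {ζ : kˣ} (hζ : IsPrimitiveRoot ζ n) {M : Multiset ℤ}
  (hM : (((u : GL chevE8.Idx F) : Matrix chevE8.Idx chevE8.Idx F).map ι).charpoly =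
    (M.map fun j => X - C ((ζ ^ j : kˣ) : k)).prod)
include hn hu hζ hM

/-- The eigenvalue multiplicities: dimension, Galois invariance, the alcove test, and the
condition for rational elements of order five. -/
theorem e8_spec {N : Multiset (ZMod n)} (hN : M.map Int.cast = N) : ∑ a, N.count a = 248 ∧
    N.map ((Fintype.card F : ZMod n) * ·) = N ∧
    (∀ P, enum alc8.m n (alc8.leaf n P) = true →
      (u = 1 ∧ N.count 0 = 248) ∨ P (∑ a, N.count a * 256 ^ a.val) = true) ∧
    (n = 5 → Fintype.card F % 5 = 3 → ∑ a, N.count a * a ^ 4 = 0) := by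
  have := goodE8
  obtain ⟨v, v', h1, h2, h3, h4⟩ := exists_adW rootTableE8 (by simp) ι p hn hu hζ hM
  have h8 : chevE8.rank = 8 := by decide +kernel
  have h5 : N.card = 248 := by
    rw [← hN, h1, ← adW8]
    simp only [Multiset.card_map, Multiset.coe_card, List.length_map]
    decide +kernel
  rw [hN] at h1
  refine ⟨by simp [h5], ?_, fun P hP => ?_, ?_⟩
  · rw [h1, ← Int.cast_natCast, ← adW_smul _ h3, h2]
  · refine (Alc.sound ok8 (NeZero.pos n) hP v).imp (fun h => ⟨h4 (h8 ▸ h), ?_⟩) fun h => ?_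
    · rw [← h5, Multiset.count_eq_card, h1, ← adW8]
      simp only [Multiset.mem_map, Multiset.mem_coe, List.mem_map]
      rintro _ ⟨_, ⟨μ, hμ, rfl⟩, rfl⟩
      exact ((ZMod.intCast_zmod_eq_zero_iff_dvd _ _).2
        (dvd_dt fun i hi => h i (hi.trans_le (ok8.1 μ hμ)))).symm
    · convert h
      rw [← show _ = ∑ a, N.count a * 256 ^ a.val from sum_map_count N _, h1, ← adW8, hist]
      simp only [← ZMod.val_intCast, Function.comp_def, Int.toNat_natCast, Multiset.map_coe,
        List.map_map, Multiset.sum_coe]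
  · rintro rfl hq
    have h6 := (sum_pow v').1
    rw [h2, (sum_pow v).1, mul_right_inj' (by norm_num)] at h6
    have h7 : ((Fintype.card F : ℤ) : ZMod 5) = 3 := by
      rw [Int.cast_natCast, ← ZMod.natCast_mod, hq]; rfl
    rw [h7] at h3
    have h9 : (Q8 v' : ZMod 5) = 9 * Q8 v := by
      simp [Q8, h3, h8]
      ring
    have h10 : (Q8 v : ZMod 5) = 0 := by
      rw [← h6] at h9
      generalize (Q8 v : ZMod 5) = x at h9
      revert x
      decide
    have h11 := congrArg (Int.cast : ℤ → ZMod 5) (sum_pow v).2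
    rw [← sum_map_count, h1]
    simpa [h10, Multiset.map_map, Int.cast_multiset_sum] using h11

end Cfsg.Agent.XM
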