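import Mathlib
import Cfsg.Agent.XM.SL2Hw

/-!
# Characteristic polynomials on modules for `SL₂(q)` in the defining characteristic

Every simple module is the span of the `r`-th powers of the linear forms for some `r < q`.
-/

set_option autoImplicit false

namespace Cfsg.Agent.XM

open Module Matrix Function Polynomial Submodule
open scoped MatrixGroups

section Lin

variable {k V : Type*} [Field k] [AddCommGroup V] [Module k V] [FiniteDimensional k V]

theorem charpoly_eq_mul [Infinite k] (W : Submodule k V) (e : End k V) (he : W ≤ W.comap e) :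
    e.charpoly = (e.restrict he).charpoly * (W.mapQ W e he).charpoly := by
  refine Polynomial.funext fun t => ?_
  have h : W ≤ W.comap (algebraMap k (End k V) t - e) := fun x hx =>
    W.sub_mem (W.smul_mem t hx) (he hx)
  rw [eval_mul, LinearMap.eval_charpoly, LinearMap.eval_charpoly, LinearMap.eval_charpoly,
    LinearMap.det_eq_det_mul_det W _ h]
  congr 2
  ext
  simp

theorem charpoly_comm (x y : End k V) : (x * y).charpoly = (y * x).charpoly := by
  let b := finBasis k V
  rw [← LinearMap.charpoly_toMatrix _ b, ← LinearMap.charpoly_toMatrix _ b, LinearMap.toMatrix_mul,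
    LinearMap.toMatrix_mul, Matrix.charpoly_mul_comm]

end Lin

/-- The exponents with non-zero binomial coefficient. -/
def wt (p r : ℕ) : Finset ℕ := (Finset.range (r + 1)).filter fun i => ¬ p ∣ r.choose i

/-- The weights of the simple module with highest weight `r`. -/
def wts (p r : ℕ) : Multiset ℤ := (wt p r).val.map fun i : ℕ => 2 * (i : ℤ) - r

section Pol

variable {k : Type*} [Field k]

/-- Powers of linear forms. -/
def pwr (r : ℕ) (w : Fin 2 → k) : (Fin 2 → k) → k := fun v => (v ⬝ᵥ w) ^ r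

/-- Monomials. -/
def mon (k : Type*) [Field k] (r i : ℕ) : (Fin 2 → k) → k := fun v => v 0 ^ i * v 1 ^ (r - i)

/-- The span of the powers of linear forms. -/
def PP (k : Type*) [Field k] (r : ℕ) : Submodule k ((Fin 2 → k) → k) := span k (Set.range (pwr r))

theorem pwr_eq (r : ℕ) (w : Fin 2 → k) : pwr r w =
    ∑ i ∈ Finset.range (r + 1), (r.choose i * (w 0 ^ i * w 1 ^ (r - i))) • mon k r i := by
  funext v
  simp only [pwr, dotProduct, Fin.sum_univ_two, add_pow, Finset.sum_apply, Pi.smul_apply, mon,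
    smul_eq_mul, mul_pow]
  exact Finset.sum_congr rfl fun i _ => by ring

theorem PP_inv (r : ℕ) (g : Matrix (Fin 2) (Fin 2) k) :
    PP k r ≤ (PP k r).comap (LinearMap.funLeft k k (· ᵥ* g)) :=
  span_le.2 (by
    rintro _ ⟨w, rfl⟩
    exact subset_span ⟨g *ᵥ w, funext fun v => congrArg (· ^ r) (dotProduct_mulVec v g w)⟩)

/-- The action of the matrices. -/
def actP (r : ℕ) : Matrix (Fin 2) (Fin 2) k →* End k (PP k r) where
  toFun g := (LinearMap.funLeft k k (· ᵥ* g)).restrict (PP_inv r g)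
  map_one' := by ext; simp
  map_mul' g h := by ext; simp

variable (p : ℕ) [CharP k p]

theorem PP_le (r : ℕ) : PP k r ≤ span k (Set.range fun i : wt p r => mon k r i) :=
  span_le.2 (by
    rintro _ ⟨w, rfl⟩
    rw [pwr_eq]
    refine sum_mem fun i hi => ?_
    by_cases h : p ∣ r.choose i
    · simp [(CharP.cast_eq_zero_iff k p _).2 h]
    · exact smul_mem _ _ (subset_span ⟨⟨i, Finset.mem_filter.2 ⟨hi, h⟩⟩, rfl⟩))

variable {F : Type*} [Field F] [Fintype F] (ι : F →+* k) {r : ℕ} (hr : r < Fintype.card F)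
include hr

omit [CharP k p] in
theorem eq_zero_of_sum {s : Finset ℕ} (hs : s ⊆ Finset.range (r + 1)) {c : ℕ → k}
    (h : ∀ a, ∑ i ∈ s, c i * ι a ^ i = 0) : ∀ i ∈ s, c i = 0 := fun i hi => by
  have := eq_zero_of_natDegree_lt_card_of_eval_eq_zero (∑ i ∈ s, monomial i (c i)) ι.injective
    (fun a => by simpa [eval_finsetSum] using h a)
    ((natDegree_sum_le_of_forall_le _ _ fun i hi => (natDegree_monomial_le _).trans
      (Nat.lt_succ_iff.1 (Finset.mem_range.1 (hs hi)))).trans_lt hr)
  simpa [coeff_monomial, hi] using congrArg (coeff · i) this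

theorem mon_mem (i : wt p r) : mon k r i ∈ span k (Set.range fun a => pwr r ![ι a, 1]) := by
  by_contra h
  obtain ⟨f, h1, h2⟩ := exists_le_ker_of_notMem h
  have := eq_zero_of_sum ι hr subset_rfl (c := fun i => r.choose i * f (mon k r i)) (fun a => by
    rw [← show f (pwr r ![ι a, 1]) = 0 from h2 (subset_span ⟨a, rfl⟩), pwr_eq, map_sum]
    exact Finset.sum_congr rfl fun i _ => by simp; ring) i (Finset.mem_filter.1 i.2).1
  exact (Finset.mem_filter.1 i.2).2 ((CharP.cast_eq_zero_iff k p _).1 (by simpa [h1] using this))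

omit hr in
/-- Restriction to the second rows. -/
def resP : ((Fin 2 → k) → k) →ₗ[k] (SL(2, F) → k) := LinearMap.funLeft k k fun x j => ι (x 1 j)

omit [CharP k p] in
theorem indep_mon : LinearIndependent k (resP ι ∘ fun i : wt p r => mon k r i) := by
  classical
  refine Fintype.linearIndependent_iff.2 fun c hc i => ?_
  have := eq_zero_of_sum ι hr (s := wt p r) (Finset.filter_subset _ _)
    (c := fun i => if h : i ∈ wt p r then c ⟨i, h⟩ else 0) (fun a => by
      obtain ⟨x, h0, h1⟩ : ∃ x : SL(2, F), x 1 0 = a ∧ x 1 1 = 1 :=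
        ⟨⟨!![1, 0; a, 1], by simp [det_fin_two]⟩, rfl, rfl⟩
      have := (Finset.sum_apply _ _ _).symm.trans (congrFun hc x)
      rw [← Finset.sum_coe_sort]
      simpa [resP, mon, h0, h1] using this) i i.2
  simpa using this

include ι in
theorem exists_basis : ∃ b : Basis (wt p r) k (PP k r), ∀ i, (b i).1 = mon k r i := by
  have h : span k (Set.range fun i : wt p r => mon k r i) = PP k r :=
    le_antisymm (span_le.2 (by
      rintro _ ⟨i, rfl⟩
      exact span_mono (by rintro _ ⟨a, rfl⟩; exact ⟨_, rfl⟩) (mon_mem p ι hr i))) (PP_le p r)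
  exact ⟨(Basis.span ((indep_mon p ι hr).of_comp _)).map (LinearEquiv.ofEq _ _ h), fun i => by simp⟩

variable {V : Type*} [AddCommGroup V] [Module k V] (ρ : SL(2, F) →* End k V)

include p in
theorem exists_equiv
    (hs : ∀ W : Submodule k V, (∀ g, W ≤ W.comap (ρ g)) → W = ⊥ ∨ W = ⊤)
    {Φ : V →ₗ[k] (SL(2, F) → k)} (hi : Injective Φ) (hΦ : ∀ g v x, Φ (ρ g v) x = Φ v (x * g))
    {s : V} (h : ∀ x, Φ s x = ι (x 1 0) ^ r) :
    ∃ e : V ≃ₗ[k] PP k r, ∀ g, e.conj (ρ g) = actP r (g.1.map ι) := by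
  obtain ⟨b, hb⟩ := exists_basis p ι hr
  let Ψ := resP ι ∘ₗ (PP k r).subtype
  have hΨ : ∀ (g : SL(2, F)) f x, Ψ (actP r (g.1.map ι) f) x = Ψ f (x * g) := fun g f x =>
    congrArg f.1 (funext fun j => by simp [vecMul, dotProduct, mul_apply])
  have h1 : Injective Ψ := LinearMap.injective_of_linearIndependent b.span_eq (by
    rw [show Ψ ∘ b = _ from funext fun i => congrArg (resP ι) (hb i)]
    exact indep_mon p ι hr)
  let f : PP k r := ⟨pwr r ![1, 0], subset_span ⟨_, rfl⟩⟩
  have h2 : Φ s = Ψ f := funext fun x => by simp [h, Ψ, f, resP, pwr, dotProduct]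
  have h3 : ∀ g v f, Φ v = Ψ f → Φ (ρ g v) = Ψ (actP r (g.1.map ι) f) := fun g v f h =>
    funext fun x => by rw [hΦ, hΨ, h]
  have h4 : Φ.range = Ψ.range := by
    refine le_antisymm (LinearMap.range_le_iff_comap.2 ((hs (Ψ.range.comap Φ) fun g v ⟨f, hf⟩ =>
      ⟨_, (h3 g v f hf.symm).symm⟩).resolve_left fun h5 => ?_)) ?_
    · have := h ww
      rw [show s = 0 from h5.le ⟨f, h2.symm⟩] at this
      simp at this
    · rw [LinearMap.range_eq_map, ← b.span_eq, map_span_le]
      rintro _ ⟨i, rfl⟩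
      change resP ι (b i) ∈ _
      refine hb i ▸ (span_le (p := Φ.range.comap (resP ι))).2 ?_ (mon_mem p ι hr i)
      rintro _ ⟨a, rfl⟩
      refine ⟨_, (h3 ⟨!![a, -1; 1, 0], by simp [det_fin_two]⟩ s f h2).trans (funext fun x => ?_)⟩
      simp [Ψ, f, resP, pwr, actP, vecMul, dotProduct]
  let e := (LinearEquiv.ofInjective Φ hi).trans
    ((LinearEquiv.ofEq _ _ h4).trans (LinearEquiv.ofInjective Ψ h1).symm)
  have h5 : ∀ v, Ψ (e v) = Φ v := fun v =>
    congrArg Subtype.val ((LinearEquiv.ofInjective Ψ h1).apply_symm_apply _)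
  refine ⟨e, fun g => LinearMap.ext fun f => h1 ?_⟩
  rw [LinearEquiv.conj_apply_apply, h5, h3 g _ f (by rw [← h5, e.apply_symm_apply])]

omit hr in
/-- `g` is diagonalisable with eigenvalues `l`, `l⁻¹`. -/
def IsDg (g : SL(2, F)) (l : kˣ) : Prop := ∃ x y : Matrix (Fin 2) (Fin 2) k, y * x = 1 ∧
  g.1.map ι = x * (diagonal ![(l : k), (l : k)⁻¹] * y)

theorem charpoly_actP [FiniteDimensional k (PP k r)] {g : SL(2, F)} {l : kˣ} (h : IsDg ι g l) :
    (actP r (g.1.map ι)).charpoly = ((wts p r).map fun j => X - C ((l ^ j : kˣ) : k)).prod := by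
  classical
  obtain ⟨b, hb⟩ := exists_basis p ι hr
  obtain ⟨x, y, h1, h2⟩ := h
  rw [h2, map_mul, charpoly_comm, ← map_mul, mul_assoc, h1, mul_one,
    ← LinearMap.charpoly_toMatrix _ b,
    show LinearMap.toMatrix b b _ = diagonal fun i => ((l ^ (2 * (i.1 : ℤ) - r) : kˣ) : k) from ?_,
    charpoly_diagonal, wts, Multiset.map_map,
    Finset.prod_coe_sort _ fun i : ℕ => X - C ((l ^ (2 * (i : ℤ) - r) : kˣ) : k)]
  · rfl
  refine (LinearMap.toMatrix b b).eq_symm_apply.1 (b.ext fun i => ?_)
  rw [LinearMap.toMatrix_symm, toLin_self, Finset.sum_eq_single i (fun j _ hj => by simp [hj])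
    (by simp), diagonal_apply_eq]
  obtain ⟨j, hj⟩ := Nat.exists_eq_add_of_le (Nat.lt_succ_iff.1 (Finset.mem_range.1
    (Finset.mem_filter.1 i.2).1))
  ext v
  have h3 : r - i = j := by omega
  have h4 : 2 * (i.1 : ℤ) - r = i - j := by omega
  rw [h4]
  simp [actP, hb, mon, vecMul_diagonal, h3, zpow_sub₀, mul_pow]
  field_simp

end Pol

universe u

variable {F k : Type*} [Field F] [Fintype F] [Field k] [Infinite k] (ι : F →+* k) (p : ℕ) [CharP k p]

/-- The characteristic polynomials of the semisimple elements. -/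
theorem exists_factors {V : Type u} [AddCommGroup V] [Module k V] [FiniteDimensional k V]
    (ρ : SL(2, F) →* End k V) : ∃ R : Multiset ℕ, (∀ r ∈ R, r < Fintype.card F) ∧
      ∀ g l, IsDg ι g l →
        (ρ g).charpoly = ((R.bind (wts p)).map fun j => X - C ((l ^ j : kˣ) : k)).prod := by
  induction hn : finrank k V using Nat.strong_induction_on generalizing V with | _ n ih
  rcases subsingleton_or_nontrivial V with hV | hV
  · refine ⟨0, by simp, fun g l _ => ?_⟩
    rw [Subsingleton.elim (ρ g) 0, LinearMap.charpoly_zero, finrank_zero_of_subsingleton]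
    simp
  obtain ⟨W, ⟨h1, h2⟩, h3⟩ := (wellFounded_lt (α := Submodule k V)).has_min
    {W | W ≠ ⊥ ∧ ∀ g, W ≤ W.comap (ρ g)} ⟨⊤, top_ne_bot, by simp⟩
  have : Nontrivial W := nontrivial_iff_ne_bot.2 h1
  have hs : ∀ U : Submodule k W, (∀ g, U ≤ U.comap (Representation.subrepresentation ρ W h2 g)) →
      U = ⊥ ∨ U = ⊤ := fun U hU => or_iff_not_imp_left.2 fun h => by
    by_contra h'
    refine h3 (U.map W.subtype) ⟨fun e => h (map_injective_of_injective W.injective_subtype
      (e.trans (Submodule.map_bot _).symm)), fun g => ?_⟩ ?_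
    · rintro _ ⟨x, hx, rfl⟩
      exact ⟨_, hU g hx, rfl⟩
    · exact (map_strictMono_of_injective W.injective_subtype (lt_top_iff_ne_top.2 h')).trans_eq
        (by simp)
  obtain ⟨r, hr, Φ, h4, h5, s, h6⟩ := exists_hw ι _ hs
  obtain ⟨e, he⟩ := exists_equiv p ι hr _ hs h4 h5 h6
  have := e.finiteDimensional
  obtain ⟨R, h7, h8⟩ := ih _ (by
    have := W.finrank_quotient_add_finrank
    have := finrank_pos (R := k) (M := W)
    omega) (Representation.quotient ρ W h2) rfl
  refine ⟨r ::ₘ R, by simpa [hr] using h7, fun g l h => ?_⟩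
  rw [charpoly_eq_mul W _ (h2 g), Multiset.cons_bind, Multiset.map_add, Multiset.prod_add,
    ← h8 g l h, ← charpoly_actP p ι hr h, ← he, LinearEquiv.charpoly_conj]
  rfl

end Cfsg.Agent.XM
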