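import Mathlib
import Cfsg.Agent.XM.SL2Def
import Cfsg.Agent.Chev.ASAlc
import Cfsg.Agent.Lang.Torus

/-!
# Galois invariance of the composition factors of modules for `PSL₂(q)`, `q` odd
-/

set_option autoImplicit false

namespace Cfsg.Agent.XM

open Multiset Cfsg.Agent.Chev.AS
open scoped MatrixGroups

theorem mem_wt {p r i : ℕ} : i ∈ wt p r ↔ ¬ p ∣ r.choose i := by
  rw [wt, Finset.mem_filter, Finset.mem_range, and_iff_right_iff_imp]
  exact fun h => not_le.1 fun h' => h (by rw [Nat.choose_eq_zero_of_lt h']; exact dvd_zero _)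

theorem wts_neg (p r : ℕ) : (wts p r).map (-·) = wts p r := by
  rw [wts, map_map]
  have hle : ∀ i ∈ wt p r, i ≤ r := fun i hi =>
    Nat.lt_succ_iff.1 (Finset.mem_range.1 (Finset.mem_filter.1 hi).1)
  refine map_eq_map_of_bij_of_nodup _ _ (wt p r).nodup (wt p r).nodup (fun i _ => r - i)
    (fun i hi => mem_wt.2 (by rw [Nat.choose_symm (hle i hi)]; exact mem_wt.1 hi))
    (fun i hi j hj h => by have := hle i hi; have := hle j hj; omega)
    (fun i hi => ⟨r - i, mem_wt.2 (by rw [Nat.choose_symm (hle i hi)]; exact mem_wt.1 hi),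
      by have := hle i hi; omega⟩) fun i hi => ?_
  have := hle i hi
  simp only [Function.comp_apply]
  omega

theorem wts_le {p r : ℕ} {j : ℤ} (h : j ∈ wts p r) : -r ≤ j ∧ j ≤ r ∧ (j - r) % 2 = 0 := by
  obtain ⟨i, hi, rfl⟩ := mem_map.1 h
  have := Finset.mem_range.1 (Finset.mem_filter.1 hi).1
  omega

variable {p : ℕ} [hp : Fact p.Prime]

theorem self_mem_wts (r : ℕ) : (r : ℤ) ∈ wts p r :=
  mem_map.2 ⟨r, mem_wt.2 (by simpa using hp.out.ne_one), by ring⟩

theorem mem_wt_of_lt {a e : ℕ} (ha : a < p) : e ∈ wt p a ↔ e ≤ a :=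
  ⟨fun h => Nat.lt_succ_iff.1 (Finset.mem_range.1 (Finset.mem_filter.1 h).1), fun h =>
    mem_wt.2 fun h' => (hp.out.dvd_factorial.1 (h'.trans ⟨_, by
      rw [← Nat.choose_mul_factorial_mul_factorial h, mul_assoc]⟩)).not_gt ha⟩

theorem wts_add {a : ℕ} (ha : a < p) (r : ℕ) :
    wts p (a + p * r) = (wts p r).bind fun j => (wts p a).map (p * j + ·) := by
  have h0 := hp.out.pos
  have key : ∀ i, i ∈ wt p (a + p * r) ↔ i / p ∈ wt p r ∧ i % p ∈ wt p a := fun i => by
    rw [mem_wt, mem_wt, mem_wt, (Choose.choose_modEq_choose_mod_mul_choose_div_nat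
      (p := p)).dvd_iff dvd_rfl, hp.out.dvd_mul, Nat.add_mul_mod_self_left, Nat.mod_eq_of_lt ha,
      Nat.add_mul_div_left _ _ h0, Nat.div_eq_of_lt ha, zero_add]
    tauto
  have : (wts p r).bind (fun j => (wts p a).map (p * j + ·)) = (wt p r ×ˢ wt p a).val.map
      fun x => p * (2 * (x.1 : ℤ) - r) + (2 * x.2 - a) := by
    rw [wts, wts, bind_map, Finset.product_val]
    change _ = map _ (product _ _)
    simp only [product, map_bind, map_map]
    rfl
  rw [this, wts]
  refine map_eq_map_of_bij_of_nodup _ _ (Finset.nodup _) (Finset.nodup _) (fun i _ => (i / p, i % p))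
    (fun i hi => Finset.mem_product.2 ((key i).1 hi)) (fun i _ j _ h => ?_) (fun x hx => ?_)
    fun i _ => ?_
  · rw [← Nat.div_add_mod i p, ← Nat.div_add_mod j p, (Prod.mk.inj h).1, (Prod.mk.inj h).2]
  · have h1 := ((mem_wt_of_lt ha).1 (Finset.mem_product.1 hx).2).trans_lt ha
    have h2 : (p * x.1 + x.2) / p = x.1 := by
      rw [Nat.mul_add_div h0, Nat.div_eq_of_lt h1, add_zero]
    have h3 : (p * x.1 + x.2) % p = x.2 := by rw [Nat.mul_add_mod, Nat.mod_eq_of_lt h1]
    exact ⟨p * x.1 + x.2, (key _).2 (by rw [h2, h3]; exact Finset.mem_product.1 hx), by rw [h2, h3]⟩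
  · have := congrArg (Nat.cast : ℕ → ℤ) (Nat.div_add_mod i p)
    simp only [Nat.cast_add, Nat.cast_mul] at this ⊢
    linear_combination -2 * this

section Ev

variable {A : Type*} [CommSemiring A]

/-- The value of a formal character. -/
def ev (χ : AddChar ℤ A) (M : Multiset ℤ) : A := (M.map χ).sum

theorem ev_add (χ : AddChar ℤ A) {a : ℕ} (ha : a < p) (r : ℕ) :
    ev χ (wts p (a + p * r)) = ev (χ.mulShift p) (wts p r) * ev χ (wts p a) := by
  simp only [ev, wts_add ha, map_bind, sum_bind, AddChar.map_add_eq_mul, sum_map_mul_left,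
    sum_map_mul_right, map_map, Function.comp_def]
  rfl

theorem ev_top (χ : AddChar ℤ A) (a m : ℕ) {r : ℕ} (hr : r < p ^ m) :
    ev χ (wts p (r + p ^ m * a)) = ev χ (wts p r) * ev (χ.mulShift (p ^ m)) (wts p a) := by
  induction m generalizing r χ with
  | zero =>
    obtain rfl : r = 0 := by simpa using hr
    have : wts p 0 = {0} := by simp [wts, wt, Finset.filter_singleton, hp.out.ne_one]
    simp [this, ev]
  | succ m ih =>
    have h0 := hp.out.pos
    have h1 := Nat.mod_lt r h0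
    rw [show r + p ^ (m + 1) * a = r % p + p * (r / p + p ^ m * a) by
      rw [mul_add, ← add_assoc, Nat.mod_add_div]; ring, ev_add _ h1,
      ih _ (Nat.div_lt_of_lt_mul (by rwa [← pow_succ'])), AddChar.mulShift_mulShift, ← pow_succ',
      mul_right_comm, ← ev_add _ h1, Nat.mod_add_div]

end Ev

/-- The rotation of the digits. -/
def rot (p m r : ℕ) : ℕ := r / p ^ m + p * (r % p ^ m)

theorem wts_rot {m r n : ℕ} (hr : r < p ^ (m + 1))
    (hn : (p : ZMod n) ^ (m + 1) = 1 ∨ (p : ZMod n) ^ (m + 1) = -1) :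
    (wts p (rot p m r)).map (Int.cast : ℤ → ZMod n) =
      ((wts p r).map Int.cast).map ((p : ZMod n) * ·) := by
  classical
  let χ : AddChar ℤ (AddMonoidAlgebra ℕ (ZMod n)) :=
    ⟨fun j => AddMonoidAlgebra.single (j : ZMod n) 1, by simp [AddMonoidAlgebra.one_def],
      by simp [AddMonoidAlgebra.single_mul_single]⟩
  have h1 : ∀ N : Multiset (ZMod n), ∀ x, ((N.map fun a =>
      (AddMonoidAlgebra.single a 1 : AddMonoidAlgebra ℕ (ZMod n))).sum).coeff x = N.count x :=
    fun N x => by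
      induction N using Multiset.induction_on with
      | empty => simp
      | cons a N ih => simp [ih, count_cons, Finsupp.single_apply, add_comm, eq_comm]
  have ha : r / p ^ m < p := Nat.div_lt_of_lt_mul (by rwa [← pow_succ])
  have h2 : ev χ (wts p (rot p m r)) = ev (χ.mulShift p) (wts p r) := by
    conv_rhs => rw [← Nat.mod_add_div r (p ^ m), ev_top _ _ m (Nat.mod_lt _ (pow_pos hp.out.pos m))]
    rw [rot, ev_add _ ha, AddChar.mulShift_mulShift, ← pow_succ']
    congr 1
    rcases hn with h | h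
    · exact congrArg sum (map_congr rfl fun j _ => by simp [χ, h])
    · nth_rewrite 1 [← wts_neg]
      exact congrArg sum ((map_map _ _ _).trans (map_congr rfl fun j _ => by simp [χ, h]))
  refine ext.2 fun x => ?_
  rw [← h1, ← h1, map_map, map_map, map_map]
  exact congrArg (fun y : AddMonoidAlgebra ℕ (ZMod n) => y.coeff x)
    (h2.trans (congrArg sum (map_congr rfl fun j _ => by simp [χ])))

theorem count_map_pair {α β : Type*} [DecidableEq α] [DecidableEq β] {f : α → β} {M : Multiset α}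
    {a a' : α} {b : β} (h : ∀ x ∈ M, f x = b ↔ x = a ∨ x = a') (h' : a ≠ a') :
    (M.map f).count b = M.count a + M.count a' := by
  induction M using Multiset.induction_on with
  | empty => simp
  | cons x M ih =>
    have := h x (by simp)
    rw [map_cons, count_cons, count_cons, count_cons, ih fun y hy => h y (by simp [hy])]
    grind

/-- A symmetric formal character is determined by its restrictions to the two tori. -/
theorem eq_of_tori {N : ℕ} {M M' : Multiset ℤ} (h1 : M.map (-·) = M) (h1' : M'.map (-·) = M')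
    (h2 : ∀ j ∈ M, -(2 * N : ℤ) ≤ j ∧ j ≤ 2 * N ∧ j % 2 = 0)
    (h2' : ∀ j ∈ M', -(2 * N : ℤ) ≤ j ∧ j ≤ 2 * N ∧ j % 2 = 0)
    (h3 : M.map (Int.cast : ℤ → ZMod (2 * N)) = M'.map Int.cast)
    (h4 : M.map (Int.cast : ℤ → ZMod (2 * N + 2)) = M'.map Int.cast) : M = M' := by
  have k0 : ∀ (n : ℕ) (x j : ℤ), -n < x - j + n → x - j < n → ((x : ZMod n) = j ↔ x = j ∨ x = j - n) :=
    fun n x j a b => by
      rw [ZMod.intCast_eq_intCast_iff_dvd_sub]
      refine ⟨fun ⟨c, hc⟩ => ?_, fun h => h.elim (by simp [·]) (by simp [·])⟩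
      have : c = 0 ∨ c = 1 := by
        have : -1 < c := by nlinarith
        have : c < 2 := by nlinarith
        omega
      rcases this with rfl | rfl <;> omega
  have k1 : ∀ {M : Multiset ℤ}, M.map (-·) = M → ∀ j, M.count (-j) = M.count j := fun h j => by
    conv_lhs => rw [← h]
    exact count_map_eq_count' _ _ neg_injective j
  have k2 : ∀ (n : ℕ) (j : ℤ), 0 < n → 2 * N - n < j → j < 2 * n - 2 * N →
      M.map (Int.cast : ℤ → ZMod n) = M'.map Int.cast →
      M.count j + M.count (n - j) = M'.count j + M'.count (n - j) := fun n j a b c h => by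
    rw [← k1 h1 (n - j), ← k1 h1' (n - j), neg_sub,
      ← count_map_pair (fun x hx => k0 n x j (by have := h2 x hx; omega) (by have := h2 x hx; omega))
        (by omega), h,
      count_map_pair (fun x hx => k0 n x j (by have := h2' x hx; omega) (by have := h2' x hx; omega))
        (by omega)]
  have k3 : ∀ j : ℤ, ¬(-(2 * N : ℤ) ≤ j ∧ j ≤ 2 * N ∧ j % 2 = 0) → M.count j = M'.count j :=
    fun j h => by rw [count_eq_zero.2 fun h' => h (h2 j h'), count_eq_zero.2 fun h' => h (h2' j h')]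
  have k4 : M.count 0 = M'.count 0 := by
    have := k2 _ 0 (by omega) (by omega) (by omega) h4
    rw [k3 (_ - 0) (by omega)] at this
    omega
  have k5 : ∀ i : ℕ, i < N → M.count (2 * N - 2 * i : ℤ) + M'.count (2 * N : ℤ) =
      M'.count (2 * N - 2 * i : ℤ) + M.count (2 * N : ℤ) := fun i hi => by
    induction i with
    | zero => simp [add_comm]
    | succ i ih =>
      have a := k2 _ (2 * i + 2) (by omega) (by omega) (by omega) h4
      have b := k2 _ (2 * i + 2) (by omega) (by omega) (by omega) h3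
      have c := ih (by omega)
      rw [show ((2 * N + 2 : ℕ) : ℤ) - (2 * i + 2) = 2 * N - 2 * i by omega] at a
      rw [show ((2 * N : ℕ) : ℤ) - (2 * i + 2) = 2 * N - 2 * (i + 1 : ℕ) by omega] at b
      omega
  have k6 : ∀ i : ℕ, i ≤ N → M.count (2 * N - 2 * i : ℤ) = M'.count (2 * N - 2 * i : ℤ) := fun i hi => by
    rcases hi.eq_or_lt with rfl | h
    · simpa using k4
    have a := k2 _ 2 (by omega) (by omega) (by omega) h4
    have b := k5 (N - 1) (by omega)
    have c := k5 i h
    rw [show ((2 * N + 2 : ℕ) : ℤ) - 2 = 2 * N by omega] at a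
    rw [show (2 * N - 2 * (N - 1 : ℕ) : ℤ) = 2 by omega] at b
    omega
  refine ext.2 fun j => ?_
  wlog hj : 0 ≤ j generalizing j
  · rw [← k1 h1, ← k1 h1', this _ (by omega)]
  by_cases h : j ≤ 2 * N ∧ j % 2 = 0
  · have := k6 (N - j / 2).toNat (by omega)
    rwa [show (2 * N - 2 * ((N - j / 2).toNat : ℕ) : ℤ) = j by omega] at this
  · exact k3 j (by omega)

theorem eq_of_bind_wts {R R' : Multiset ℕ} (h : R.bind (wts p) = R'.bind (wts p)) : R = R' := by
  have k1 : ∀ {R R' : Multiset ℕ}, R.bind (wts p) = R'.bind (wts p) → ∀ r ∈ R, ∃ r' ∈ R', r ≤ r' :=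
    fun h r hr => by
      obtain ⟨r', h1, h2⟩ := mem_bind.1 (h ▸ mem_bind.2 ⟨r, hr, self_mem_wts r⟩)
      exact ⟨r', h1, by have := wts_le h2; omega⟩
  induction hn : card R using Nat.strong_induction_on generalizing R R' with | _ n ih
  by_cases h0 : R = 0
  · subst h0
    exact (eq_zero_of_forall_notMem fun r hr => by simpa using k1 h.symm r hr).symm
  obtain ⟨r, h1, h2⟩ := exists_max_image id h0
  obtain ⟨r', h3, h4⟩ := k1 h r h1
  obtain ⟨s, h5, h6⟩ := k1 h.symm r' h3
  obtain rfl : r = r' := h4.antisymm (h6.trans (h2 s h5))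
  obtain ⟨R, rfl⟩ := exists_cons_of_mem h1
  obtain ⟨R', rfl⟩ := exists_cons_of_mem h3
  exact congrArg _ (ih _ (by simp [← hn]) (by simpa using h) rfl)

/-- The composition factors are permuted by the Frobenius twist. -/
theorem rot_inv (h2 : p ≠ 2) {m N : ℕ} (hN : p ^ (m + 1) = 2 * N + 1) {R : Multiset ℕ}
    (hR : ∀ r ∈ R, r < p ^ (m + 1) ∧ r % 2 = 0)
    (h : ∀ n, n = 2 * N ∨ n = 2 * N + 2 → ((R.bind (wts p)).map (Int.cast : ℤ → ZMod n)).map
      ((p : ZMod n) * ·) = (R.bind (wts p)).map Int.cast) : R.map (rot p m) = R := by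
  have k1 : ∀ R : Multiset ℕ, (R.bind (wts p)).map (-·) = R.bind (wts p) := fun R => by
    simp [map_bind, wts_neg]
  have k2 : ∀ R : Multiset ℕ, (∀ r ∈ R, r < p ^ (m + 1) ∧ r % 2 = 0) → ∀ j ∈ R.bind (wts p),
      -(2 * N : ℤ) ≤ j ∧ j ≤ 2 * N ∧ j % 2 = 0 := fun R hR j hj => by
    obtain ⟨r, h1, h2⟩ := mem_bind.1 hj
    have := hR r h1
    have := wts_le h2
    omega
  have k3 : ∀ n, n = 2 * N ∨ n = 2 * N + 2 → ((R.map (rot p m)).bind (wts p)).map
      (Int.cast : ℤ → ZMod n) = (R.bind (wts p)).map Int.cast := fun n hn => by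
    rw [← h n hn, bind_map, map_bind, map_bind, map_bind]
    refine bind_congr fun r hr => wts_rot (hR r hr).1 ?_
    rw [← Nat.cast_pow, hN]
    exact hn.imp (fun h => by simp [← h]) fun h => eq_neg_of_add_eq_zero_left (by
      rw [← ZMod.natCast_self n, h]; push_cast; ring)
  refine eq_of_bind_wts (p := p) (eq_of_tori (k1 _) (k1 _) (k2 _ fun _ hr => ?_) (k2 _ hR)
    (k3 _ (.inl rfl)) (k3 _ (.inr rfl)))
  obtain ⟨r, hr', rfl⟩ := mem_map.1 hr
  obtain ⟨h3, h4⟩ := hR r hr'
  have ha : r / p ^ m < p := Nat.div_lt_of_lt_mul (by rwa [← pow_succ])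
  have hb := Nat.mod_lt r (pow_pos hp.out.pos m)
  have ho := hp.out.odd_of_ne_two h2
  refine ⟨by rw [rot, pow_succ']; nlinarith, Nat.even_iff.1 ?_⟩
  rw [← Nat.even_iff, ← Nat.mod_add_div r (p ^ m)] at h4
  simpa [rot, Nat.even_add, Nat.even_mul, Nat.not_even_iff_odd.2 ho, Nat.even_pow, iff_comm]
    using h4

omit hp in
/-- The orbit of the twist. -/
def orb (p m r : ℕ) : List ℕ := ((List.range (m + 1)).map fun i => (rot p m)^[i] r).dedup

omit hp in
theorem sum_mem_of_orb {A : Type*} [AddCommMonoid A] (f : ℕ → A) (S : AddSubmonoid A) {m : ℕ}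
    {R : Multiset ℕ} (h : R.map (rot p m) = R)
    (hR : ∀ r ∈ R, (∀ s ∈ orb p m r, r ≤ s) →
      ((orb p m r).map (rot p m)).Perm (orb p m r) ∧ ((orb p m r).map f).sum ∈ S) :
    (R.map f).sum ∈ S := by
  induction hn : card R using Nat.strong_induction_on generalizing R with | _ n ih
  rcases eq_or_ne R 0 with rfl | h0
  · simp
  obtain ⟨r, hr, hr'⟩ := exists_min_image id h0
  have h1 : ∀ i, (rot p m)^[i] r ∈ R := fun i => by
    induction i with
    | zero => exact hr
    | succ i ih => rw [Function.iterate_succ_apply', ← h]; exact mem_map_of_mem _ ih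
  have h3 : ∀ x ∈ orb p m r, x ∈ R := fun x hx => by
    obtain ⟨i, -, rfl⟩ := List.mem_map.1 (List.mem_dedup.1 hx)
    exact h1 i
  have h4 := hR r hr fun s hs => hr' s (h3 s hs)
  obtain ⟨R', rfl⟩ := Multiset.le_iff_exists_add.1 ((le_iff_subset (s := orb p m r) (t := R)
    (coe_nodup.2 (List.nodup_dedup _))).2 fun x hx => h3 x hx)
  have h2 : r ∈ orb p m r := List.mem_dedup.2 (List.mem_map.2 ⟨0, by simp, rfl⟩)
  rw [Multiset.map_add, map_coe, coe_eq_coe.2 h4.1, add_right_inj] at h
  rw [Multiset.map_add, sum_add]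
  exact add_mem h4.2 (ih _ (by simpa [← hn] using List.length_pos_of_mem h2) h
    (fun s hs => hR s (mem_add.2 (.inr hs))) rfl)

/-- The weights for computations. -/
def wl (p : ℕ) : ℕ → ℕ → List ℤ
  | 0, _ => [0]
  | n + 1, r => (wl p n (r / p)).flatMap fun j =>
    (List.range (r % p + 1)).map fun e : ℕ => p * j + (2 * e - (r % p : ℕ))

theorem wl_eq {n r : ℕ} (hr : r < p ^ n) : (wl p n r : Multiset ℤ) = wts p r := by
  induction n generalizing r with
  | zero =>
    obtain rfl : r = 0 := by simpa using hr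
    simp [wl, wts, wt, Finset.filter_singleton, hp.out.ne_one]
  | succ n ih =>
    have h1 := Nat.mod_lt r hp.out.pos
    conv_rhs => rw [← Nat.mod_add_div r p, wts_add h1,
      ← ih (Nat.div_lt_of_lt_mul (by rwa [← pow_succ']))]
    rw [wl, ← coe_bind, wts, show wt p (r % p) = Finset.range (r % p + 1) from
      Finset.ext fun e => by rw [mem_wt_of_lt h1, Finset.mem_range, Nat.lt_succ_iff]]
    simp only [map_map]
    rfl

omit hp in
/-- Enumeration of the sums of elements of a list below a bound. -/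
noncomputable def allSums (B f : ℕ) (P : ℕ → Bool) (L : List ℕ) : ℕ → Bool :=
  List.rec P (fun v _ ih => Nat.rec (Nat.ble B) (fun _ ih' a =>
    Nat.ble B a || (ih a && frcN (a + v) ih')) f) L

omit hp in
theorem allSums_sound {B f : ℕ} {P : ℕ → Bool} {L : List ℕ} {a : ℕ} (h : allSums B f P L a = true)
    {x : ℕ} (hx : x ∈ AddSubmonoid.closure {v | v ∈ L}) (hB : a + x < B) : P (a + x) = true := by
  induction L generalizing a x with
  | nil =>
    obtain rfl : x = 0 := by simpa using hx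
    exact h
  | cons v L ih =>
    rw [show {w | w ∈ v :: L} = {v} ∪ {w | w ∈ L} by ext; simp, AddSubmonoid.closure_union,
      AddSubmonoid.mem_sup] at hx
    obtain ⟨_, hy, z, hz, rfl⟩ := hx
    obtain ⟨c, rfl⟩ := AddSubmonoid.mem_closure_singleton.1 hy
    change Nat.rec (motive := fun _ => ℕ → Bool) (Nat.ble B) (fun _ ih' a =>
      Nat.ble B a || (allSums B f P L a && frcN (a + v) ih')) f a = true at h
    have key : ∀ g a c : ℕ, Nat.rec (motive := fun _ => ℕ → Bool) (Nat.ble B) (fun _ ih' a =>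
        Nat.ble B a || (allSums B f P L a && frcN (a + v) ih')) g a = true → a + (c • v + z) < B →
        P (a + (c • v + z)) = true := fun g => by
      induction g with
      | zero => exact fun a c h hB => absurd (Nat.le_of_ble_eq_true h) (by omega)
      | succ g ih' =>
        intro a c h hB
        simp only [Bool.or_eq_true, Nat.ble_eq, Bool.and_eq_true] at h
        obtain ⟨h1, h2⟩ := h.resolve_left (by omega)
        rcases c with _ | c
        · simpa using ih h1 hz (by simpa using hB)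
        · rw [succ_nsmul', add_assoc, ← add_assoc] at hB ⊢
          exact ih' _ _ ((frcN_eq _ _).symm.trans h2) hB
    exact key _ _ _ h hB

section Dg

open Matrix

variable {F k : Type*} [Field F] [Fintype F] [Field k] (ι : F →+* k)

omit hp [Fintype F] in
theorem IsDg.pow_eq_one {g : SL(2, F)} {l : kˣ} (h : IsDg ι g l) {n : ℕ} (hl : l ^ n = 1) :
    g ^ n = 1 := by
  obtain ⟨x, y, h1, h2⟩ := h
  have h3 : ∀ i : ℕ, ((g ^ i : SL(2, F)) : Matrix _ _ F).map ι = x * (diagonal ![(l : k), (l : k)⁻¹] ^ i * y) := fun i => by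
    induction i with
    | zero => simp [mul_eq_one_comm.1 h1]
    | succ i ih =>
      rw [pow_succ, show (g ^ i * g).1 = (g ^ i).1 * g.1 from rfl, Matrix.map_mul, ih, h2, pow_succ]
      simp only [mul_assoc]
      rw [← mul_assoc y, h1, one_mul]
  refine Subtype.ext (Matrix.map_injective ι.injective ((h3 n).trans ?_))
  rw [diagonal_pow, show ![(l : k), (l : k)⁻¹] ^ n = 1 from funext fun i => by
    fin_cases i <;> simp [← Units.val_pow_eq_pow_val, hl]]
  simp [mul_eq_one_comm.1 h1]

omit hp in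
theorem exists_isDg {l : kˣ} (h : l ^ (Fintype.card F - 1) = 1 ∨ l ^ (Fintype.card F + 1) = 1)
    (h2 : l ^ 2 ≠ 1) : ∃ g, IsDg ι g l ∧ g 1 0 = 1 := by
  obtain ⟨p, hp⟩ := CharP.exists F
  obtain ⟨e, h3, h4⟩ := FiniteField.card F p
  have := (ι.charP_iff_charP p).1 hp
  have := Fact.mk h3
  obtain ⟨t, ht⟩ := Lang.mem_range_of_pow_card ι (t := l + (l : k)⁻¹) (by
    have h5 : l ^ Fintype.card F = l ∨ l ^ Fintype.card F = l⁻¹ := h.imp (fun h => by
      rw [← Nat.sub_add_cancel (Fintype.card_pos (α := F)), pow_succ, h, one_mul])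
      fun h => eq_inv_of_mul_eq_one_left (by rwa [← pow_succ])
    rw [h4, add_pow_char_pow, ← h4, inv_pow, ← Units.val_pow_eq_pow_val]
    rcases h5 with h5 | h5 <;> simp [h5, add_comm])
  have h5 := l.ne_zero
  have h6 : (l : k) ^ 2 - 1 ≠ 0 := fun h => h2 (Units.ext (by simpa [sub_eq_zero] using h))
  refine ⟨⟨!![t, -1; 1, 0], by simp [det_fin_two]⟩, ⟨!![l, (l : k)⁻¹; 1, 1],
    (l / (l ^ 2 - 1) : k) • !![1, -(l : k)⁻¹; -1, l], ?_, ?_⟩, rfl⟩ <;> ext i j <;> fin_cases i <;>
    fin_cases j <;> simp [mul_apply, ht] <;> field_simp <;> ring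

end Dg

end Cfsg.Agent.XM
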