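import Mathlib
import Cfsg.Agent.XM.E8Eig
import Cfsg.Agent.XM.SL2Gal

/-!
# Subgroups `PSL₂(3ⁿ)` of `E₈(3)`: the composition factors on the Lie algebra
-/

set_option autoImplicit false

namespace Cfsg.Agent.XM

open Polynomial Cfsg.Lie Cfsg.Agent.Chev Cfsg.Agent.Chev.AS Multiset
open scoped MatrixGroups

theorem exists_rho {D : ChevalleyDatum} {G K k : Type*} [Group G] [Field K] [Field k]
    (ι : K →+* k) (φ : G →* D.group K) : ∃ ρ : G →* Module.End k (D.Idx → k), ∀ g,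
      (ρ g).charpoly = (((φ g : GL D.Idx K) : Matrix D.Idx D.Idx K).map ι).charpoly :=
  ⟨{ toFun := fun g => Matrix.toLin' (((φ g : GL D.Idx K) : Matrix D.Idx D.Idx K).map ι)
     map_one' := by simp [Module.End.one_eq_id]
     map_mul' := fun g h => by simp [Matrix.map_mul, Matrix.toLin'_mul, Module.End.mul_eq_comp] },
    fun _ => Matrix.charpoly_toLin' _⟩

theorem sum_zmod {n : ℕ} [NeZero n] {R : Type*} [Semiring R] (N : Multiset (ZMod n)) (g : ℕ → R) :
    ∑ a, N.count a * g a.val = ∑ i ∈ Finset.range n, N.count (i : ZMod n) * g i :=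
  Finset.sum_nbij' ZMod.val (↑) (by simp [ZMod.val_lt]) (by simp) (by simp)
    (fun i hi => ZMod.val_cast_of_lt (Finset.mem_range.1 hi)) (by simp)

theorem sum_mod {n : ℕ} [NeZero n] (M : Multiset ℤ) (g : ℕ → ℕ) :
    (M.map fun j : ℤ => g (j % n).toNat).sum =
      ∑ i ∈ Finset.range n, (M.map (Int.cast : ℤ → ZMod n)).count (i : ZMod n) * g i := by
  refine Eq.trans ?_ ((sum_map_count _ fun a : ZMod n => g a.val).trans (sum_zmod _ g))
  simp only [← ZMod.val_intCast, Int.toNat_natCast, map_map, Function.comp_def]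

theorem setup {F : Type*} [Field F] [Fintype F] {m N : ℕ} (hq : Fintype.card F = 3 ^ (m + 1))
    (hN : 3 ^ (m + 1) = 2 * N + 1) (hN' : 1 < N) {H : Subgroup (chevE8.group (ZMod 3))}
    (e : H ≃* PSL(2, F)) :
    ∃ R : Multiset ℕ, (∀ r ∈ R, r < 3 ^ (m + 1) ∧ r % 2 = 0) ∧ R.map (rot 3 m) = R ∧
      ∀ (n : ℕ) [NeZero n], n ∣ 2 * N ∨ n ∣ 2 * N + 2 → 2 < n → ∀ M : Multiset (ZMod n),
        (R.bind (wts 3)).map Int.cast = M → ∑ i ∈ Finset.range n, M.count (i : ZMod n) = 248 ∧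
          M.map (3 * ·) = M ∧ (∀ P, enum alc8.m n (alc8.leaf n P) = true →
            P (∑ i ∈ Finset.range n, M.count (i : ZMod n) * 256 ^ i) = true) ∧
          (n = 5 → ∑ a, M.count a * a ^ 4 = 0) := by
  have : Fact (Nat.Prime 3) := ⟨by norm_num⟩
  have : CharP F 3 := charP_of_card_eq_prime_pow hq
  let k := AlgebraicClosure F
  let ι := algebraMap F k
  let φ : SL(2, F) →* chevE8.group (ZMod 3) :=
    H.subtype.comp (e.symm.toMonoidHom.comp (QuotientGroup.mk' _))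
  have hφ : ∀ g, φ g = 1 ↔ g ∈ Subgroup.center _ := fun g => by simp [φ]
  obtain ⟨ρ, hρ⟩ := exists_rho (ZMod.castHom dvd_rfl k) φ
  obtain ⟨R, h1, h2⟩ := exists_factors ι 3 ρ
  have h3 : ∀ r ∈ R, r < 3 ^ (m + 1) ∧ r % 2 = 0 := fun r hr => ⟨hq ▸ h1 r hr, by
    have h4 := h2 (-1) (-1) ⟨1, 1, by simp, by ext i j; fin_cases i <;> fin_cases j <;> simp⟩
    rw [hρ, (hφ _).2 (Subgroup.mem_center_iff.2 (by simp)), OneMemClass.coe_one, Units.val_one,
      Matrix.map_one _ (_root_.map_zero _) (map_one _), Matrix.charpoly_one] at h4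
    have h5 : X - C (((-1) ^ (r : ℤ) : kˣ) : k) ∣ _ := h4 ▸ dvd_prod
      (mem_map_of_mem _ (mem_bind.2 ⟨r, hr, self_mem_wts r⟩))
    by_contra h6
    have h7 : (-1 : k) ^ r - 1 = 0 := And.left (by simpa using dvd_iff_isRoot.1 h5)
    rw [Odd.neg_one_pow (Nat.odd_iff.2 (by omega))] at h7
    have h8 : ((2 : ℕ) : k) = 0 := by push_cast; linear_combination -h7
    exact absurd ((CharP.cast_eq_zero_iff k 3 2).1 h8) (by norm_num)⟩
  have key : ∀ (n : ℕ) [NeZero n], n ∣ 2 * N ∨ n ∣ 2 * N + 2 → 2 < n → ∀ M : Multiset (ZMod n),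
      (R.bind (wts 3)).map Int.cast = M → ∑ i ∈ Finset.range n, M.count (i : ZMod n) = 248 ∧
        M.map (3 * ·) = M ∧ (∀ P, enum alc8.m n (alc8.leaf n P) = true →
          P (∑ i ∈ Finset.range n, M.count (i : ZMod n) * 256 ^ i) = true) ∧
        (n = 5 → ∑ a, M.count a * a ^ 4 = 0) := fun n _ hn h M hM => by
    have h4 : n.Coprime 3 := ((Nat.Prime.coprime_iff_not_dvd Fact.out).2 fun h' => by
      have := hn.imp h'.trans h'.trans
      omega).symm
    have : NeZero (n : k) := ⟨fun h => (Nat.Prime.coprime_iff_not_dvd Fact.out).1 h4.symm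
      ((CharP.cast_eq_zero_iff k 3 n).1 h)⟩
    obtain ⟨z, hz⟩ := HasEnoughRootsOfUnity.exists_primitiveRoot k n
    obtain ⟨z, rfl⟩ := hz.isUnit (NeZero.ne n)
    rw [IsPrimitiveRoot.coe_units_iff] at hz
    obtain ⟨g, h5, h6⟩ := exists_isDg ι (l := z) (by
      rw [hq, hN, hz.pow_eq_one_iff_dvd, hz.pow_eq_one_iff_dvd]
      exact hn) fun h' => absurd (Nat.le_of_dvd two_pos ((hz.pow_eq_one_iff_dvd 2).1 h')) h.not_ge
    obtain ⟨k1, k2, k3, k4⟩ := e8_spec (ZMod.castHom dvd_rfl k) 3 h4 (u := φ g)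
      (by rw [← map_pow, h5.pow_eq_one ι hz.pow_eq_one, map_one]) hz ((hρ g).symm.trans (h2 g z h5)) hM
    refine ⟨by simpa [k1] using (sum_zmod M fun _ => (1 : ℕ)).symm, by simpa using k2,
      fun P hP => ?_, fun h => k4 h (by simp)⟩
    rw [← show _ = ∑ i ∈ Finset.range n, M.count (i : ZMod n) * 256 ^ i from sum_zmod M (256 ^ ·)]
    refine (k3 P hP).resolve_left fun h' => ?_
    obtain ⟨r, -, hr⟩ := Matrix.SpecialLinearGroup.mem_center_iff.1 ((hφ g).1 h'.1)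
    simp [← hr] at h6
  refine ⟨R, h3, rot_inv (by norm_num) hN h3 fun n hn => ?_, key⟩
  have : NeZero n := ⟨by omega⟩
  exact (key n (hn.imp dvd_of_eq dvd_of_eq) (by omega) _ rfl).2.1

theorem exists_of_orb {m B K f : ℕ} {φ : ℤ → ℕ} {L : List ℕ} {P : ℕ → Bool}
    (h1 : ∀ r < 3 ^ (m + 1), r % 2 = 0 → (∀ s ∈ orb 3 m r, r ≤ s) → ((orb 3 m r).map (rot 3 m)).Perm (orb 3 m r) ∧
      (∀ s ∈ orb 3 m r, s < 3 ^ (m + 1)) ∧ frcN ((orb 3 m r).map fun s =>
        ((wl 3 (m + 1) s).map φ).sum).sum (fun s => Nat.ble B s || L.elem s || Nat.beq (s % K) 0) = true)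
    (h2 : allSums B f P L 0 = true) {R : Multiset ℕ} (h3 : ∀ r ∈ R, r < 3 ^ (m + 1) ∧ r % 2 = 0)
    (h4 : R.map (rot 3 m) = R) (h5 : ((R.bind (wts 3)).map φ).sum < B) :
    ∃ a, P a = true ∧ a % K = ((R.bind (wts 3)).map φ).sum % K := by
  have : Fact (Nat.Prime 3) := ⟨by norm_num⟩
  let S : AddSubmonoid ℕ :=
    { carrier := {v | v < B → ∃ a ∈ AddSubmonoid.closure {v | v ∈ L}, a ≤ v ∧ a % K = v % K}
      zero_mem' := fun _ => ⟨0, zero_mem _, le_rfl, rfl⟩
      add_mem' := fun {v w} hv hw h => by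
        obtain ⟨a, a1, a2, a3⟩ := hv (by omega)
        obtain ⟨b, b1, b2, b3⟩ := hw (by omega)
        exact ⟨a + b, add_mem a1 b1, by omega, Nat.ModEq.add a3 b3⟩ }
  rw [map_bind, sum_bind] at h5 ⊢
  obtain ⟨a, a1, a2, a3⟩ := sum_mem_of_orb (fun s => ((wts 3 s).map φ).sum) S h4 (fun r hr h => by
    obtain ⟨b1, b2, b3⟩ := h1 r (h3 r hr).1 (h3 r hr).2 h
    refine ⟨b1, fun h => ?_⟩
    rw [List.map_congr_left fun s hs => by
      rw [← wl_eq (b2 s hs), map_coe, sum_coe]] at h ⊢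
    simp only [frcN_eq, Bool.or_eq_true, Nat.ble_eq, List.elem_eq_mem, decide_eq_true_eq,
      Nat.beq_eq] at b3
    rcases b3 with (b3 | b3) | b3
    · omega
    · exact ⟨_, AddSubmonoid.subset_closure b3, le_rfl, rfl⟩
    · exact ⟨0, zero_mem _, zero_le, b3.symm⟩) h5
  exact ⟨a, by simpa using allSums_sound h2 a1 (by omega), a3⟩

/-- Digits in base 256. -/
def dg (H j : ℕ) : ℕ := H / 256 ^ j % 256

theorem dg_sum {n : ℕ} {c : ℕ → ℕ} (h : ∑ i ∈ Finset.range n, c i = 248) {j : ℕ} (hj : j < n) :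
    dg (∑ i ∈ Finset.range n, c i * 256 ^ i) j = c j := by
  have h1 : ∀ i < n, c i < 256 := fun i hi =>
    (h ▸ Finset.single_le_sum (fun _ _ => zero_le) (Finset.mem_range.2 hi)).trans_lt (by norm_num)
  clear h
  induction j generalizing n c with
  | zero =>
    obtain ⟨n, rfl⟩ := Nat.exists_eq_succ_of_ne_zero hj.ne'
    simp [dg, Finset.sum_range_succ', pow_succ, ← mul_assoc, ← Finset.sum_mul, h1]
  | succ j ih =>
    obtain ⟨n, rfl⟩ := Nat.exists_eq_succ_of_ne_zero (n := n) (by omega)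
    rw [← ih (n := n) (c := fun i => c (i + 1)) (by omega) fun i hi => h1 _ (by omega), dg, dg,
      pow_succ', ← Nat.div_div_eq_div_mul, Finset.sum_range_succ']
    simp only [pow_succ, ← mul_assoc, ← Finset.sum_mul]
    have := h1 0 (by omega)
    congr 2
    omega

end Cfsg.Agent.XM
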